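import Cfsg.Agent.H1.A8Emb
import Cfsg.Agent.H1.A8Data3

/-!
# Construction of `A_8` from the normalizer of a three-cycle
-/

set_option autoImplicit false

namespace Cfsg.Agent.H1.A8K

open Subgroup Cfsg.Agent.H9 Cfsg.Agent.H1.T3 Cfsg.Agent.H1.PC Cfsg.Agent.L0.SC3
open Cfsg.Agent.H1.A8 (K10 hK10 gK10)
open scoped Pointwise

set_option maxRecDepth 100000 in
open Cfsg.Agent.L0.Code A8 in
theorem g_ND : ∀ k ∈ A8.ND, ∀ d ∈ A8.D, k * d * k⁻¹ ∈ A8.D := by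
  simp only [A8.hD0.sball A8.le_D, hND0.sball le_ND]
  simp +contextual only [Subgroup.coe_mul, Subgroup.coe_inv, Subgroup.mem_subgroupOf, enc_mul h8,
    enc_inv h8, A8.hD0.encd, hND0.encd, A8.hD0.mem_memF]
  decide +kernel

variable {G : Type*} [Group G] [Finite G]

/-- The three-local hypotheses. -/
structure Pre (ψ : K10 →* G) : Prop where
  inj : Function.Injective ψ
  nz : ∀ g, g * ψ z * g⁻¹ = ψ z ∨ g * ψ z * g⁻¹ = (ψ z)⁻¹ → ∃ k, ψ k = g
  syl : ¬ 27 ∣ Nat.card G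
  nD : Nat.card (normalizer ((D.map ψ : Subgroup G) : Set G)) = 72
  cy : ∃ d ∈ D, centralizer ({ψ d} : Set G) ≤ normalizer ((D.map ψ : Subgroup G) : Set G)

/-- An element interchanging the two three-cycles. -/
structure Sig (ψ : K10 →* G) (σ : G) : Prop where
  sq : σ * σ = 1
  zw : σ * ψ z * σ⁻¹ = ψ w
  wz : σ * ψ w * σ⁻¹ = ψ z
  r12 : σ * ψ r1 * σ⁻¹ = ψ r2
  r21 : σ * ψ r2 * σ⁻¹ = ψ r1

namespace Pre

variable {ψ : K10 →* G} (h : Pre ψ)
include h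

omit [Finite G] in
theorem ne {a : K10} (ha : a ≠ 1) : ψ a ≠ 1 := fun e => ha (h.inj (by rw [e, map_one]))

omit [Finite G] in
theorem cz {g : G} (e : g * ψ z = ψ z * g) : ∃ k, ψ k = g := h.nz g (Or.inl (conj_eq_iff.mpr e))

theorem BN : B.map ψ ≤ normalizer ((D.map ψ : Subgroup G) : Set G) := by
  rintro _ ⟨b, hb, rfl⟩
  refine mem_normalizer_of_conj_mem ?_
  rintro _ ⟨d, hd, rfl⟩
  exact ⟨_, p_BD b hb d hd, by simp⟩

omit [Finite G] in
theorem memB {k : K10} (hk : ψ k ∈ normalizer ((D.map ψ : Subgroup G) : Set G)) : k ∈ B := by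
  have key : ∀ d ∈ D, k * d * k⁻¹ ∈ D := fun d hd => by
    obtain ⟨e, he, e'⟩ := conj_mem_of_mem_normalizer hk (mem_map_of_mem ψ hd)
    rwa [← h.inj (a₂ := k * d * k⁻¹) (by simpa using e')]
  exact (p_B k).mpr ⟨key _ p_rel2.1, key _ p_rel2.2.1⟩

theorem exists_sig : ∃ σ, Sig ψ σ := by
  obtain ⟨r1', r2', r3, r4, r5, r6, r7, r8, r9, r10, r11, r12, r13, r14, r15, -⟩ := p_rel
  obtain ⟨m1, m2, m3, m4, m5, m6, -⟩ := p_rel2
  have hc : Nat.card (B.map ψ) = 36 := by rw [card_map_of_injective h.inj, card_B]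
  obtain ⟨s, hs, hsB⟩ : ∃ s ∈ normalizer ((D.map ψ : Subgroup G) : Set G), s ∉ B.map ψ := by
    by_contra hh
    push Not at hh
    have := card_le_of_le (show normalizer ((D.map ψ : Subgroup G) : Set G) ≤ _ from hh)
    rw [h.nD, hc] at this
    omega
  have hm : ∀ a ∈ B, ∃ b ∈ B, ψ b = s * ψ a * s⁻¹ := fun a ha => by
    have h1 := h.BN (mem_map_of_mem ψ ha)
    have i := @mul_mem_iff_of_card _ _ _ _ _ h.BN (by rw [h.nD, hc])
    refine (i (mul_mem hs h1) (inv_mem hs)).mpr ?_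
    rw [i hs h1, inv_mem_iff]
    simp only [hsB, mem_map_of_mem ψ ha]
    simp
  obtain ⟨a, ha, ea⟩ := hm z m3
  obtain ⟨b, hb, eb⟩ := hm w m4
  obtain ⟨c, hc, ec⟩ := hm r1 m5
  obtain ⟨d, hd, ed⟩ := hm r2 m6
  have hz : ∀ k, ψ k ≠ s := by
    rintro k rfl
    exact hsB (mem_map_of_mem ψ (h.memB hs))
  have tr : ∀ {a b a' b' : K10}, ψ a' = s * ψ a * s⁻¹ → ψ b' = s * ψ b * s⁻¹ →
      (a' = b' ↔ a = b) := fun ea eb => by
    rw [← h.inj.eq_iff, ea, eb, mul_left_inj, mul_right_inj, h.inj.eq_iff]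
  have mu : ∀ {a b a' b' : K10}, ψ a' = s * ψ a * s⁻¹ → ψ b' = s * ψ b * s⁻¹ →
      ψ (a' * b') = s * ψ (a * b) * s⁻¹ := fun ea eb => by
    rw [map_mul, map_mul, ea, eb]; group
  have iv : ∀ {a a' : K10}, ψ a' = s * ψ a * s⁻¹ → ψ a'⁻¹ = s * ψ a⁻¹ * s⁻¹ := fun ea => by
    rw [map_inv, map_inv, ea]; group
  have on : ψ 1 = s * ψ 1 * s⁻¹ := by simp
  have cu : ∀ {a a' : K10}, ψ a' = s * ψ a * s⁻¹ → ψ (a' ^ 3) = s * ψ (a ^ 3) * s⁻¹ := fun ea => by
    rw [map_pow, map_pow, ea, conj_pow]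
  obtain ⟨t, -, e1, e2, e3, e4⟩ := p_sig a ha ((tr (cu ea) on).mpr r1') (mt (tr ea on).mp r2')
    (by
      rintro rfl
      obtain ⟨k, hk⟩ := h.nz s (Or.inl ea.symm)
      exact hz k hk)
    (by
      rintro rfl
      obtain ⟨k, hk⟩ := h.nz s (Or.inr (by rw [← ea, map_inv]))
      exact hz k hk)
    b hb ((tr (cu eb) on).mpr r3) (mt (tr eb on).mp r4) (mt (tr eb ea).mp r6)
    (mt (tr eb (iv ea)).mp r7) c hc ((tr (mu ec ec) on).mpr r8)
    ((tr (mu ec ea) (mu ea ec)).mpr r10) ((tr (mu (mu ec eb) (iv ec)) (iv eb)).mpr r11)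
    d hd ((tr (mu ed ed) on).mpr r12) ((tr (mu ed eb) (mu eb ed)).mpr r13)
    ((tr (mu (mu ed ea) (iv ed)) (iv ea)).mpr r14) ((tr (mu ec ed) (mu ed ec)).mpr r15)
  have f : ∀ {a a' a'' : K10}, ψ a' = s * ψ a * s⁻¹ → t * a' * t⁻¹ = a'' →
      ψ t * s * ψ a * (ψ t * s)⁻¹ = ψ a'' := fun ea e => by
    rw [← e, map_mul, map_mul, map_inv, ea]; group
  have f1 := f ea e1
  have f2 := f eb e2
  have f3 := f ec e3
  have f4 := f ed e4
  generalize ψ t * s = σ at f1 f2 f3 f4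
  have g : ∀ {a b : K10}, σ * ψ a * σ⁻¹ = ψ b → σ * ψ b * σ⁻¹ = ψ a →
      σ * σ * ψ a = ψ a * (σ * σ) := fun e1 e2 => by
    rw [← conj_eq_iff]
    conv_rhs => rw [← e2, ← e1]
    group
  obtain ⟨k, hk⟩ := h.cz (g f1 f2)
  have g' : ∀ {a b : K10}, σ * ψ a * σ⁻¹ = ψ b → σ * ψ b * σ⁻¹ = ψ a → k * a = a * k :=
    fun e1 e2 => h.inj (by rw [map_mul, map_mul, hk, g e1 e2])
  refine ⟨σ, ?_, f1, f2, f3, f4⟩
  rw [← hk, (p_cB k (g' f1 f2) (g' f2 f1)).2 (g' f3 f4) (g' f4 f3), map_one]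

theorem no5 {g : G} (hg : g * ψ a5 * g⁻¹ ∈ normalizer ((D.map ψ : Subgroup G) : Set G)) :
    False := by
  have : Fact (Nat.Prime 5) := ⟨by norm_num⟩
  have h1 := orderOf_dvd_natCard _ hg
  rw [h.nD, orderOf_conj_eq, orderOf_eq_prime (p := 5)
    (by rw [← map_pow, p_rel2.2.2.2.2.2.2.2.2.2.1, map_one])
    (h.ne p_rel2.2.2.2.2.2.2.2.2.2.2.1)] at h1
  omega

theorem cent_y {σ : G} (hσ : Sig ψ σ) :
    centralizer ({ψ y} : Set G) ≤ normalizer ((D.map ψ : Subgroup G) : Set G) := by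
  obtain ⟨d, hd, hc⟩ := h.cy
  have e5 : ψ a5 * ψ z = ψ z * ψ a5 := by rw [← map_mul, p_rel2.2.2.2.2.2.2.2.2.1, map_mul]
  rcases (p_D d hd).2.2.2 with rfl | (rfl | rfl) | (rfl | rfl) | ⟨u, hu, e⟩
  · exact (h.no5 (g := 1) (hc (by simp [T3.mem_cent]))).elim
  · exact (h.no5 (g := 1) (hc (by simpa [T3.mem_cent] using e5))).elim
  · exact (h.no5 (g := 1) (hc (by
      rw [T3.mem_cent, map_inv, one_mul, inv_one, mul_one]
      exact (Commute.inv_right e5).eq))).elim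
  · exact (h.no5 (g := σ) (hc (by rw [T3.mem_cent, ← hσ.zw]; exact conj_comm e5))).elim
  · exact (h.no5 (g := σ) (hc (by
      rw [T3.mem_cent, map_inv, ← hσ.zw]
      exact (Commute.inv_right (conj_comm e5)).eq))).elim
  · intro g hg
    have h1 := conj_comm (g := (ψ u)⁻¹) (T3.mem_cent.mp hg)
    rw [← e, show (ψ u)⁻¹ * ψ (u * d * u⁻¹) * (ψ u)⁻¹⁻¹ = ψ d by simp [mul_assoc]] at h1
    have h2 := h.BN (mem_map_of_mem ψ hu)
    simpa [mul_assoc] using mul_mem (mul_mem h2 (hc (T3.mem_cent.mpr h1))) (inv_mem h2)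

theorem sylD : IsSylowIn 3 (D.map ψ) ⊤ :=
  have : Fact (Nat.Prime 3) := ⟨Nat.prime_three⟩
  isSylowIn_of_card (k := 2) le_top (by rw [card_map_of_injective h.inj, card_D]; rfl)
    (by rw [card_top]; exact h.syl)

theorem no9 {t : G} (ht : t * t = 1) (h1 : t ≠ 1) : ¬ 9 ∣ Nat.card (centralizer ({t} : Set G)) := by
  have : Fact (Nat.Prime 3) := ⟨Nat.prime_three⟩
  have := not_dvd_card_cent h.sylD (t := t) (fun g hg => by
    obtain ⟨k, e⟩ := h.cz (hg _ (mem_map_of_mem ψ p_rel2.1))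
    have h2 := hg _ (mem_map_of_mem ψ p_rel2.2.1)
    have h3 := hg _ (mem_map_of_mem ψ p_rel2.1)
    rw [← e, ← map_mul, ← map_mul, h.inj.eq_iff] at h2 h3
    refine conj_ne_one (g := g) h1 ?_
    rw [← e, (p_cB k h3 h2).1 (h.inj (by rw [map_mul, e, T3.conj_sq ht, map_one])), map_one])
  rwa [card_map_of_injective h.inj, card_D] at this

theorem sig_not_conj {σ : G} (hσ : Sig ψ σ) (g : G) (k : K10) : g * σ * g⁻¹ ≠ ψ k := fun e => by
  have s1 : σ ≠ 1 := fun e => p_rel.2.2.2.2.2.1 (h.inj (by simpa [e] using hσ.wz))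
  obtain ⟨l, hl⟩ : ∃ l, l * σ * l⁻¹ * ψ z = ψ z * (l * σ * l⁻¹) := by
    obtain ⟨t, ht⟩ := p_inv k (h.inj (by rw [map_mul, ← e, T3.conj_sq hσ.sq, map_one]))
    have e1 : ψ t * g * σ * (ψ t * g)⁻¹ = ψ (t * k * t⁻¹) := by
      rw [map_mul, map_mul, map_inv, ← e]; group
    rcases ht with ht | ht
    · exact ⟨ψ t * g, by rw [e1, ← map_mul, ht, map_mul]⟩
    · refine ⟨σ * (ψ t * g), ?_⟩
      rw [← hσ.wz, show σ * (ψ t * g) * σ * (σ * (ψ t * g))⁻¹ =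
        σ * (ψ t * g * σ * (ψ t * g)⁻¹) * σ⁻¹ by group, e1]
      exact conj_comm (by rw [← map_mul, ht, map_mul])
  obtain ⟨m, -, hm⟩ := exists_conj_three (L := centralizer ({σ} : Set G)) (a := l⁻¹ * ψ z * l⁻¹⁻¹)
    (b := ψ y) (by
      have := conj_comm (g := l⁻¹) hl
      rw [show l⁻¹ * (l * σ * l⁻¹) * l⁻¹⁻¹ = σ by group] at this
      exact T3.mem_cent.mpr this.symm)
    (by
      rw [T3.mem_cent, eq_comm, ← conj_eq_iff, p_rel.2.2.2.2.2.2.2.2.2.2.2.2.2.2.2]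
      conv_rhs => rw [p_rel.2.2.2.2.1, map_mul, ← hσ.zw]
      conv_rhs => rhs; rw [← hσ.wz]
      rw [map_mul]; group)
    (conj_cube (by rw [← map_pow, p_rel.1, map_one])) (conj_ne_one (h.ne p_rel.2.1))
    (by rw [← map_pow, p_rel2.2.2.2.2.2.2.1, map_one]) (h.ne p_rel2.2.2.2.2.2.2.2.1)
    (h.no9 hσ.sq s1)
  have h1 := conj_comm (g := m * l⁻¹) (show ψ a5 * ψ z = ψ z * ψ a5 by
    rw [← map_mul, p_rel2.2.2.2.2.2.2.2.2.1, map_mul])
  rw [show m * l⁻¹ * ψ z * (m * l⁻¹)⁻¹ = m * (l⁻¹ * ψ z * l⁻¹⁻¹) * m⁻¹ by group] at h1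
  refine h.no5 (g := m * l⁻¹) (h.cent_y hσ (T3.mem_cent.mpr ?_))
  rcases hm with hm | hm <;> rw [hm] at h1
  · exact h1
  · exact (Commute.inv_right_iff.mp h1).eq

omit h [Finite G] in
theorem cV {g : G} : g ∈ centralizer ({ψ v1, ψ v2} : Set G) ↔ ∀ v ∈ V, g * ψ v = ψ v * g := by
  refine ⟨fun hg v hv => ?_, fun hg => mem_cent2.mpr ⟨hg _ ?_, hg _ ?_⟩⟩
  · have := cl_induction le_V (B := (centralizer ({g} : Set G)).comap ψ) (by
      simp only [gV0, List.mem_cons, List.not_mem_nil, or_false]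
      rintro c (rfl | rfl)
      · exact T3.mem_cent.mpr (mem_cent2.mp hg).1.symm
      · exact T3.mem_cent.mpr (mem_cent2.mp hg).2.symm) hv
    exact (T3.mem_cent.mp this).symm
  · exact dec_mem_cl (by simp [gV0])
  · exact dec_mem_cl (by simp [gV0])

theorem exists_u {σ : G} (hσ : Sig ψ σ) : ∃ u, (u = u1 ∨ u = u2) ∧
    σ * ψ u * σ⁻¹ * ψ v1 = ψ v1 * (σ * ψ u * σ⁻¹) := by
  have : Fact (Nat.Prime 3) := ⟨Nat.prime_three⟩
  by_contra hcon
  push Not at hcon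
  obtain ⟨m1, m2, -, -, -, -, -, -, -, -, -, m12, m13, m14, m15⟩ := p_rel2
  set L := centralizer ({ψ v1, ψ v2} : Set G)
  have hz : ψ z ∈ L := by
    rw [mem_cent2, ← map_mul, ← map_mul, ← map_mul, ← map_mul, m14, m15]; exact ⟨rfl, rfl⟩
  have h3 : ψ z ^ 3 = 1 := by rw [← map_pow, p_rel.1, map_one]
  have h9 : ¬ 9 ∣ Nat.card L := fun hd => h.no9 (t := ψ v1) (by rw [← map_mul, m12, map_one])
    (h.ne m13) (hd.trans (card_dvd_of_le (fun g hg => T3.mem_cent.mpr (mem_cent2.mp hg).1)))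
  have hP := pnil_three hz h3 (h.ne p_rel.2.1) h9 (fun g hg e => by
    obtain ⟨k, rfl⟩ := h.nz g (Or.inr e)
    obtain ⟨e1, e2⟩ := mem_cent2.mp hg
    exact (p_cV k (h.inj (by simpa using e1)) (h.inj (by simpa using e2))).1
      (h.inj (by simpa using e)))
  have hDM : D.map ψ ≤ normalizer (hP.compl : Set G) := le_trans (by
    rintro _ ⟨d, hd, rfl⟩
    refine mem_normalizer_of_conj_mem (fun g hg => cV.mpr (fun v hv => ?_))
    have := cV.mp hg _ ((p_D d⁻¹ (inv_mem hd)).2.2.1 v hv)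
    rw [map_mul, map_mul, map_inv, map_inv, map_inv, inv_inv] at this
    calc _ = ψ d * (g * ((ψ d)⁻¹ * ψ v * ψ d)) * (ψ d)⁻¹ := by group
      _ = _ := by rw [this]; group) hP.normalizer_le
  have p40 : ∀ (k : K10) (s : G), s * ψ k * s⁻¹ ∈ hP.compl → k ^ 40 = 1 := fun k s hk => by
    refine pow_eq_one_of_dvd (n := 9) (by rw [← pow_card_eq_one' (x := k), A8.card_K10]) ?_
    rw [← orderOf_injective ψ h.inj, ← orderOf_conj_eq s]
    exact Nat.Coprime.pow_right 2 hk.2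
  have c1 : ∀ g ∈ hP.compl, g * ψ z = ψ z * g → g ∈ V.map ψ := fun g hg e => by
    obtain ⟨k, rfl⟩ := h.cz e
    obtain ⟨e1, e2⟩ := mem_cent2.mp hg.1
    exact mem_map_of_mem ψ ((p_cV k (h.inj (by simpa using e1)) (h.inj (by simpa using e2))).2
      (p40 k 1 (by simpa using hg)))
  have c2 : ∀ g ∈ hP.compl, g * ψ w = ψ w * g → g ∈ V.map ψ := fun g hg e => by
    have e1 := conj_comm (g := σ) e
    rw [hσ.wz] at e1
    obtain ⟨k, hk⟩ := h.cz e1
    have hi := inv_eq_of_mul_eq_one_right hσ.sq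
    have e2 : σ * ψ k * σ⁻¹ = g := by
      rw [hk, hi]
      calc _ = σ * σ * g * (σ * σ) := by group
        _ = g := by rw [hσ.sq]; group
    let R : Subgroup K10 := (MulAut.conj σ⁻¹ • hP.compl).comap ψ
    have hR : ∀ a, a ∈ R ↔ σ * ψ a * σ⁻¹ ∈ hP.compl := fun a => by
      rw [mem_comap, mem_conj_smul_iff, inv_inv]
    have hw : ∀ a ∈ R, w * a * w⁻¹ ∈ R := fun a ha => by
      rw [hR] at ha ⊢
      have := conj_mem_of_mem_normalizer (hDM (mem_map_of_mem ψ m1)) ha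
      rwa [← hσ.wz, show σ * ψ w * σ⁻¹ * (σ * ψ a * σ⁻¹) * (σ * ψ w * σ⁻¹)⁻¹ =
        σ * ψ (w * a * w⁻¹) * σ⁻¹ by simp [mul_assoc]] at this
    have k0 : k ∈ R := by rwa [hR, e2]
    have k1 := hw k k0
    have k2 : w⁻¹ * k * w⁻¹⁻¹ ∈ R := by
      have := hw _ k1
      rwa [show w * (w * k * w⁻¹) * w⁻¹ = (w * w) * k * (w * w)⁻¹ by group,
        mul_self_of_cube p_rel.2.2.1] at this
    have fin : ∀ a ∈ R, ¬ (a = u1 ∨ a = u2) := fun a ha hu =>
      hcon a hu (mem_cent2.mp ((hR a).mp ha).1).1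
    by_cases hk1 : k = 1
    · rw [← e2, hk1]; simp
    rw [← hk, ← map_mul, ← map_mul, h.inj.eq_iff] at e1
    have p : ∀ a ∈ R, a ^ 40 = 1 := fun a ha => p40 a σ ((hR a).mp ha)
    rcases p_W k e1 hk1 (p _ k0) (p _ (mul_mem k0 k1))
      (p _ (mul_mem (mul_mem (mul_mem (mul_mem k0 k1) k0) k1) k2))
      (p _ (mul_mem (mul_mem (mul_mem (mul_mem k0 k1) k0) k2) k1)) with e | e | e
    · exact (fin _ k0 e).elim
    · exact (fin _ k1 e).elim
    · exact (fin _ k2 e).elim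
  have hM : hP.compl ≤ V.map ψ := le_of_cent1 (A := D.map ψ) h.sylD.isPGroup (by
      rintro _ ⟨a, ha, rfl⟩ _ ⟨b, hb, rfl⟩
      rw [← map_mul, (p_D a ha).1 b hb, map_mul])
    (not_isCyclic_of_exp (p := 3) (by norm_num) (by rw [card_map_of_injective h.inj, card_D]; rfl)
      (by
        rintro _ ⟨b, hb, rfl⟩
        rw [← map_pow, (p_D b hb).2.1, map_one])) hDM hP.coprime_card_compl (by
      rintro _ ⟨d, hd, rfl⟩ d1 g hg e
      rcases (p_D d hd).2.2.2 with rfl | (rfl | rfl) | (rfl | rfl) | ⟨u, hu, e'⟩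
      · exact absurd (map_one ψ) d1
      · exact c1 g hg e
      · exact c1 g hg (Commute.inv_right_iff.mp (by rw [← map_inv]; exact e)).eq
      · exact c2 g hg e
      · exact c2 g hg (Commute.inv_right_iff.mp (by rw [← map_inv]; exact e)).eq
      have h1 := conj_comm (g := ψ u) e
      rw [← map_inv, ← map_mul, ← map_mul, e', map_inv] at h1
      have h2 := h.BN (mem_map_of_mem ψ hu)
      have h4 : g ∈ normalizer ((D.map ψ : Subgroup G) : Set G) := by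
        simpa [mul_assoc] using
          mul_mem (mul_mem (inv_mem h2) (h.cent_y hσ (T3.mem_cent.mpr h1))) h2
      refine c1 g hg ?_
      have h5 : g * ψ z * g⁻¹ * (ψ z)⁻¹ ∈ D.map ψ := mul_mem
        (conj_mem_of_mem_normalizer h4 (mem_map_of_mem ψ m1)) (inv_mem (mem_map_of_mem ψ m1))
      have h6 : g * ψ z * g⁻¹ * (ψ z)⁻¹ ∈ hP.compl := by
        rw [mul_assoc, mul_assoc, ← mul_assoc (ψ z)]
        exact mul_mem hg (conj_mem_of_mem_normalizer (hDM (mem_map_of_mem ψ m1)) (inv_mem hg))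
      rw [← conj_eq_iff, ← mul_inv_eq_one]
      exact eq_one_of_mem_pgroup_of_coprime h.sylD.isPGroup h5 h6.2)
  obtain ⟨t1, t2, t3, t4, t5, t6, t7, t8, t9, t10, t11, t12, -⟩ := p_hv
  have hTN : T1.map ψ ≤ normalizer ((F.map ψ : Subgroup G) : Set G) := by
    rintro _ ⟨t, ht, rfl⟩
    refine mem_normalizer_of_conj_mem ?_
    rintro _ ⟨f, hf, rfl⟩
    exact ⟨_, (p_F f hf).1 t ht, by simp⟩
  have hT2 : IsPGroup 2 (T1.map ψ) := (IsPGroup.of_card (n := 3) card_T1).map ψ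
  obtain ⟨S, hS, hTS⟩ := exists_isSylowIn_ge hTN hT2
  have hST : S ≤ T1.map ψ := by
    by_contra hn
    obtain ⟨g, hgS, hgT, hg⟩ := exists_mem_normalizer hS.isPGroup hTS hn
    obtain ⟨a, ha, ea⟩ := conj_mem_of_mem_normalizer hg (mem_map_of_mem ψ t4)
    obtain ⟨b, hb, eb⟩ := conj_mem_of_mem_normalizer hg (mem_map_of_mem ψ t5)
    obtain ⟨c, hc, ec⟩ := conj_mem_of_mem_normalizer hg (mem_map_of_mem ψ t6)
    have mF : ∀ {a a' : K10}, a ∈ F → ψ a' = g * ψ a * g⁻¹ → a' ∈ F := fun ha e => by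
      obtain ⟨f, hf, e'⟩ := conj_mem_of_mem_normalizer (hS.le hgS) (mem_map_of_mem ψ ha)
      rwa [h.inj (e.trans e'.symm)]
    obtain ⟨t, ht, e1, e2⟩ := p_T1 a ha (mF t7 ea) b hb
      (h.inj (by rw [map_mul, eb, T3.conj_sq (by rw [← map_mul, t9, map_one]), map_one]))
      (h.inj (by rw [map_mul, map_mul, ea, eb, conj_comm (by rw [← map_mul, t10, map_mul])]))
      (fun e => conj_ne_one (g := g) (h.ne p_rel.2.2.2.2.2.2.2.2.1) (by rw [← ea, e, map_one]))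
      c hc (mF t8 ec) (fun e => t11 (h.inj (by
        have := conj_comm (g := g⁻¹) (show ψ b * ψ c = ψ c * ψ b by rw [← map_mul, e, map_mul])
        rw [eb, ec] at this
        simpa [mul_assoc] using this)))
    have f1 : ψ t * g * ψ r1 = ψ r1 * (ψ t * g) := by
      rw [← conj_eq_iff]
      conv_rhs => rw [← e1, map_mul, map_mul, map_inv, ea]
      group
    have f2 : ψ t * g * ψ q = ψ q * (ψ t * g) := by
      rw [← conj_eq_iff]
      conv_rhs => rw [← e2, map_mul, map_mul, map_inv, eb]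
      group
    have f3 := conj_comm (g := ψ hv) f1
    have f4 := conj_comm (g := ψ hv) f2
    rw [← map_inv, ← map_mul, ← map_mul, t1, map_inv, map_mul] at f3
    rw [← map_inv, ← map_mul, ← map_mul, t2, map_inv] at f4
    obtain ⟨n, hn⟩ := El2.of_mem hS.isPGroup (S.mul_mem (hTS (mem_map_of_mem ψ ht)) hgS)
    obtain ⟨v, hv', e⟩ := hM (x := ψ hv * (ψ t * g) * (ψ hv)⁻¹) ⟨mem_cent2.mpr ⟨by
      rw [← mul_assoc, f4, mul_assoc (ψ v2), mul_assoc (ψ v2)] at f3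
      exact mul_left_cancel f3, f4⟩, by
      rw [orderOf_conj_eq]
      exact Nat.Coprime.coprime_dvd_left (orderOf_dvd_of_pow_eq_one hn)
        (Nat.Coprime.pow_left _ (by norm_num))⟩
    refine hgT ⟨t⁻¹ * (hv⁻¹ * v * hv), mul_mem (inv_mem ht) (t3 v hv'), ?_⟩
    simp [e, mul_assoc]
  obtain ⟨l, -, k, -, e⟩ := exists_conj_mem_sylow (le_antisymm hTS hST ▸ hS) (El2.of_sq hσ.sq)
    (mem_normalizer_of_conj_mem (H := F.map ψ) (by
      rintro _ ⟨f, hf, rfl⟩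
      rcases (p_F f hf).2.2 with rfl | rfl | rfl | rfl
      · simp
      · exact hσ.r12 ▸ mem_map_of_mem ψ t8
      · exact hσ.r21 ▸ mem_map_of_mem ψ t7
      · have := mul_mem (mem_map_of_mem ψ t8) (mem_map_of_mem ψ t7)
        rw [← hσ.r12] at this
        nth_rewrite 2 [← hσ.r21] at this
        convert this using 1
        rw [map_mul]; group))
  exact h.sig_not_conj hσ l k e.symm

theorem exists_hom {σ : G} (hσ : Sig ψ σ) :
    ∃ φ : A8.A8 →* G, φ.comp (inclusion A8.le_K1) = ψ := by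
  obtain ⟨u, hu, hc⟩ := h.exists_u hσ
  obtain ⟨b0, b2, b4, b6, b3, b66, bv, bu⟩ := p_moore
  obtain ⟨c1, c2, c3, c4, c5⟩ : u ^ 2 = 1 ∧ (w * u) ^ 3 = 1 ∧ (u * r1) ^ 3 = 1 ∧
      (u * (r1 * r2)) ^ 2 = 1 ∧ (u * (z * (r1 * r2) * z⁻¹)) ^ 2 = 1 := by
    rcases hu with rfl | rfl <;> tauto
  obtain ⟨d1, d2, d3, d4, d5, d6, d7, d8, d9, d10, d11, d12, d13, d14, d15⟩ := p_moore2
  have t1 : ∀ {a : K10} {n : ℕ}, a ^ n = 1 → ψ a ^ n = 1 := fun e => by
    rw [← map_pow, e, map_one]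
  have t2 : ∀ {a b : K10} {n : ℕ}, (a * b) ^ n = 1 → (ψ a * ψ b) ^ n = 1 := fun e => by
    rw [← map_mul, t1 e]
  have t3 : ∀ {a b : K10} {n : ℕ}, (a * b) ^ n = 1 →
      (σ * ψ a * σ⁻¹ * (σ * ψ b * σ⁻¹)) ^ n = 1 := fun e => by
    rw [conj_mul, conj_pow, t2 e]; simp
  have e4 : ψ a4 = σ * ψ (r1 * r2) * σ⁻¹ := by
    rw [b4, map_mul, map_mul, ← conj_mul, hσ.r12, hσ.r21]
  have e6 : ψ a6 = σ * ψ (z * (r1 * r2) * z⁻¹) * σ⁻¹ := by
    rw [b6, ← b4, map_mul, map_mul, map_inv, e4, ← hσ.zw]; simp [mul_assoc]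
  have x1 : (σ * ψ u * σ⁻¹) ^ 2 = 1 := by rw [conj_pow, t1 c1]; simp
  have x16 : (σ * ψ u * σ⁻¹ * ψ a6) ^ 2 = 1 := by rw [e6]; exact t3 c5
  have cm : ∀ {a b : G}, a ^ 2 = 1 → b ^ 2 = 1 → ((a * b) ^ 2 = 1 ↔ a * b = b * a) :=
    fun {a b} ha hb => by
      rw [sq] at ha hb
      rw [sq, ← eq_inv_iff_mul_eq_one, mul_inv_rev, inv_eq_of_mul_eq_one_right ha,
        inv_eq_of_mul_eq_one_right hb]
  obtain ⟨φ, hφ⟩ := exists_hom_alt' (m := 5) (x := fun i => match i with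
      | 0 => ψ a0 | 1 => σ * ψ u * σ⁻¹ | 2 => ψ a2 | 3 => ψ a3 | 4 => ψ a4 | _ => ψ a6)
    ⟨t1 d1, fun i h1 h2 => by
      interval_cases i
      exacts [x1, t1 d2, t1 d3, t1 d4, t1 d5], fun i hi => by
      have : i < 5 := by omega
      interval_cases i
      · change (ψ a0 * _) ^ 3 = 1
        rw [b0, ← hσ.wz]; exact t3 c2
      · change (_ * ψ a2) ^ 3 = 1
        rw [b2, ← hσ.r12]; exact t3 c3
      exacts [t2 d6, t2 d7, t2 d8], fun i j h1 h2 => by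
      have : i < 4 := by omega
      interval_cases i <;> interval_cases j
      · exact t2 d9
      · exact t2 d10
      · exact t2 d11
      · exact t2 d12
      · refine (cm x1 (t1 d3)).mpr ?_
        rw [b3, map_mul, ← mul_assoc, (cm x1 (t1 d5)).mp x16, mul_assoc, hc, mul_assoc (ψ a6)]
      · change (_ * ψ a4) ^ 2 = 1
        rw [e4]; exact t3 c4
      · exact x16
      · exact t2 d13
      · exact t2 d14
      · exact t2 d15⟩
  refine ⟨φ, eq_on_cl _ _ ?_⟩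
  have key : ∀ i (hi : i < 6) (a : K10), L0.Code.enc (H4.adjSwap 7 0 * H4.adjSwap 7 (i + 1)) =
      L0.Code.enc (a : Equiv.Perm (Fin 8)) → inclusion A8.le_K1 a = ySw 5 i := fun i hi a e =>
    Subtype.ext (by rw [coe_ySw hi]; exact ((eq_iff_enc A8.h8 _ _).mpr e).symm)
  simp only [gK10, List.mem_cons, List.not_mem_nil, or_false]
  rintro c (rfl | rfl | rfl | rfl | rfl)
  · exact (congrArg φ (key 0 (by norm_num) a0 (by rw [enc_a0]; decide +kernel))).trans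
      (hφ 0 (by norm_num))
  · exact (congrArg φ (key 2 (by norm_num) a2 (by rw [enc_a2]; decide +kernel))).trans
      (hφ 2 (by norm_num))
  · exact (congrArg φ (key 3 (by norm_num) a3 (by rw [enc_a3]; decide +kernel))).trans
      (hφ 3 (by norm_num))
  · exact (congrArg φ (key 4 (by norm_num) a4 (by rw [enc_a4]; decide +kernel))).trans
      (hφ 4 (by norm_num))
  · exact (congrArg φ (key 5 (by norm_num) a6 (by rw [enc_a6]; decide +kernel))).trans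
      (hφ 5 (by norm_num))

theorem main : Nonempty (G ≃* alternatingGroup (Fin 8)) := by
  obtain ⟨σ, hσ⟩ := h.exists_sig
  obtain ⟨φ, hφ⟩ := h.exists_hom hσ
  have e : ∀ a, ψ a = φ (inclusion A8.le_K1 a) := fun a => by rw [← hφ]; rfl
  have ez : ψ z = φ A8.z := e z
  have ey : ψ y = φ A8.y := e y
  have hinj : Function.Injective φ := by
    have := alternatingGroup.isSimpleGroup (α := Fin 8) (by simp)
    rw [← MonoidHom.ker_eq_bot_iff]
    refine (IsSimpleGroup.eq_bot_or_eq_top_of_normal _ φ.normal_ker).resolve_right (fun hk => ?_)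
    exact h.ne p_rel.2.1 (ez.trans (show A8.z ∈ φ.ker from hk ▸ mem_top _))
  have eD : D.map ψ = A8.D.map φ := by
    refine eq_of_le_of_card_ge ?_ (by
      rw [card_map_of_injective h.inj, card_map_of_injective hinj, card_D, A8.card_D])
    rintro _ ⟨d, hd, rfl⟩
    exact ⟨inclusion A8.le_K1 d, hd, (e d).symm⟩
  have eN : A8.ND.map φ = normalizer ((D.map ψ : Subgroup G) : Set G) := by
    refine eq_of_le_of_card_ge ?_ (by rw [card_map_of_injective hinj, A8.card_ND, h.nD])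
    rintro _ ⟨b, hb, rfl⟩
    rw [eD]
    refine mem_normalizer_of_conj_mem ?_
    rintro _ ⟨d, hd, rfl⟩
    exact ⟨_, g_ND b hb d hd, by simp⟩
  have hE : A8.Emb φ := ⟨hinj, fun g hg => by
      obtain ⟨k, rfl⟩ := h.nz g (by rwa [ez])
      exact ⟨inclusion A8.le_K1 k, k.2, (e k).symm⟩,
    fun g hg => eN ▸ h.cent_y hσ (T3.mem_cent.mpr (by rwa [ey])), h.syl⟩
  exact ⟨(MulEquiv.ofBijective φ ⟨hinj, hE.surj⟩).symm⟩

end Pre

end Cfsg.Agent.H1.A8K
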