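import Cfsg.Agent.H1.S8Base
import Cfsg.Agent.H1.S8Data2

/-!
# Three-local recognition of `S_8`: the symmetric group
-/

set_option autoImplicit false

namespace Cfsg.Agent.H1.T3

open Subgroup Cfsg.Agent.H9 Equiv

variable {G : Type*} [Group G]

theorem Split.comm {L : Subgroup G} {a : G} {ι : Perm (Fin 6) →* G} (h : Split L a ι)
    (ha2 : a * a = 1) (hac : ∀ g ∈ L, g * a = a * g) {u v : G} (hu : u ∈ L) (hv : v ∈ L)
    (e : u * v * u⁻¹ * v⁻¹ ∈ zpowers a) : u * v = v * u := by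
  obtain ⟨p, hp⟩ := h.dec u hu
  obtain ⟨q, hq⟩ := h.dec v hv
  have c : ∀ g ∈ L, a * g * a⁻¹ = g := fun g hg => by rw [← hac g hg, mul_inv_cancel_right]
  have e1 : u * v * u⁻¹ = ι p * v * (ι p)⁻¹ := by
    rcases hp with rfl | rfl
    · rfl
    · rw [← c _ (mul_mem (mul_mem (h.mem p) hv) (inv_mem (h.mem p)))]; group
  have e2 : ι p * v * (ι p)⁻¹ * v⁻¹ = ι (p * q * p⁻¹ * q⁻¹) := by
    rcases hq with rfl | rfl
    · simp
    · rw [← mul_assoc, hac _ (h.mem p), ← c _ (h.mem (p * q * p⁻¹ * q⁻¹))]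
      simp [mul_assoc]
  rw [e1, e2, mem_zpowers_two ha2] at e
  rw [← conj_eq_iff, ← mul_inv_eq_one, e1, e2]
  exact e.resolve_right (h.ne _)

theorem Split.card [Finite G] {L : Subgroup G} {a : G} {ι : Perm (Fin 6) →* G} (h : Split L a ι) :
    Nat.card L ≤ 1440 := by
  classical
  have : Function.Surjective (fun x : Bool × Perm (Fin 6) => if hx : (cond x.1 a 1) * ι x.2 ∈ L
      then (⟨_, hx⟩ : L) else 1) := fun g => by
    obtain ⟨p, e | e⟩ := h.dec g g.2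
    · exact ⟨(false, p), by simp [← e]⟩
    · exact ⟨(true, p), by simp [← e]⟩
  have := Nat.card_le_card_of_surjective _ this
  rwa [Nat.card_prod, Nat.card_perm, Nat.card_fin, Nat.card_eq_fintype_card (α := Bool),
    Fintype.card_bool] at this

theorem Idx2.mem_iff_alt {n : ℕ} {N L : Subgroup G} (h : Idx2 N L) (Φ : Perm (Fin n) →* G)
    (hΦ : ∀ p, Φ p ∈ L) {a : Perm (Fin n)} (ha : a ∉ alternatingGroup (Fin n)) (haN : Φ a ∉ N)
    (p : Perm (Fin n)) : Φ p ∈ N ↔ p ∈ alternatingGroup (Fin n) := by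
  have h1 : alternatingGroup (Fin n) ≤ N.comap Φ := by
    rw [← Perm.closure_three_cycles_eq_alternating, closure_le]
    intro q hq
    exact h.cube (hΦ q) (by rw [← map_pow, ← Perm.IsThreeCycle.orderOf hq, pow_orderOf_eq_one,
      map_one])
  refine ⟨fun hp => ?_, fun hp => h1 hp⟩
  by_contra hp'
  have h2 : p * a ∈ alternatingGroup (Fin n) := by
    rw [Perm.mem_alternatingGroup] at *
    rw [map_mul, (Int.units_eq_one_or _).resolve_left hp', (Int.units_eq_one_or _).resolve_left ha]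
    decide
  have h3 : Φ p * Φ a ∈ N := by rw [← map_mul]; exact h1 h2
  exact haN (by simpa using mul_mem (inv_mem hp) h3)

end Cfsg.Agent.H1.T3

namespace Cfsg.Agent.H1.S8K

open Subgroup Cfsg.Agent.H9 Cfsg.Agent.H1.T3 Cfsg.Agent.H1.PC Cfsg.Agent.L0.SC3 Equiv
open scoped Pointwise

theorem ar1 : ∀ n : ℕ, 0 < n → n ≤ 1440 → 9 ∣ n → 5 ∣ n → ¬ 64 ∣ n := by omega
theorem ar2 : ∀ n : ℕ, n ≤ 8 → 2 ∣ n → n ≠ 0 → n ≠ 4 → n ≠ 8 → n ≠ 6 → n = 2 := by omega
theorem ar3 : ∀ n : ℕ, 2 * n = 40320 → n = 20160 := by omega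
theorem ar4 : ∀ a b n : ℕ, 128 * a = n → 20160 * b = n → ¬ 2 ∣ a → b % 4 = 2 := by omega

variable {G : Type*} [Group G] [Finite G]

namespace Pre

variable {ψ : K0 →* G} (h : Pre ψ) {σ : G} (hσ : Sig ψ σ t)
include h hσ

theorem exists_S8 : ∃ Φ : Perm (Fin 8) →* G, Φ.comp K0.subtype = ψ ∧
    centralizer ({ψ a} : Set G) ≤ Φ.range ∧ Nat.card (centralizer ({ψ a} : Set G)) ≤ 1440 := by
  obtain ⟨k1, k2, k3, k4, k5, k6, k7, k8, k9, k10, k11, k12, k13, k14, k15, k16, k17, k18⟩ := k_A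
  obtain ⟨p1, p2, -, -, p5, -, -, p8, p9, p10, p11, -⟩ := k_rel3
  obtain ⟨-, -, -, -, -, -, -, r8, -, -, r11, -⟩ := k_rel
  have q1 := k_rel2.2.2.2.2.2.2.2.2.2.2.2.1
  have a2 : ψ a * ψ a = 1 := by rw [← map_mul, q1, map_one]
  obtain ⟨g, hg⟩ : ∃ g, g * ψ s0 * g⁻¹ = ψ a := ⟨(σ * ψ ka)⁻¹, by
    rw [← hσ.us, ← k1]; simp [mul_assoc]⟩
  have mC : ∀ {v}, v * ψ s0 = ψ s0 * v → g * v * g⁻¹ ∈ centralizer ({ψ a} : Set G) := fun e => by
    rw [T3.mem_cent, ← hg]; exact conj_comm e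
  rcases h.dich hσ (Or.inl rfl) with hc | ⟨π, ι, hk, hι, i0, i1, i3, i4⟩
  · exact (h.no5 (hc (mC (h.comm.mpr k2)))).elim
  rw [← p5] at i4
  have s : ∀ {p q : Perm (Fin 6)}, p * q = q * p → ι p * ι q = ι q * ι p := fun e => by
    rw [← map_mul, e, map_mul]
  have cox := H4.coxA_adjSwap 5
  have x2 : ι S6.c2 * ι S6.c2 = 1 := by
    rw [← map_mul, ← S6.adj2, cox.sq 2 (by norm_num), map_one]
  have x0 : ι S6.c2 * ψ s0 = ψ s0 * ι S6.c2 := by
    rw [← i0]; exact s (by rw [← S6.adj2, ← S6.adj0]; decide)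
  have x1 : (ψ s1 * ι S6.c2) ^ 3 = 1 := by
    rw [← i1, ← map_mul, ← map_pow, ← map_one ι, ← S6.adj2, ← S6.adj1]
    exact congrArg ι (by decide)
  have x3 : (ι S6.c2 * ψ t) ^ 3 = 1 := by
    rw [← i3, ← map_mul, ← map_pow, ← map_one ι, ← S6.adj2, ← S6.adj3]
    exact congrArg ι (by decide)
  have x4 : ι S6.c2 * ψ t1 = ψ t1 * ι S6.c2 := by
    rw [← i4]; exact s (by rw [← S6.adj2, ← S6.adj4]; decide)
  have x6 : ι S6.c2 * ψ a = ψ a * ι S6.c2 := T3.mem_cent.mp (hι.mem _)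
  have t1 : ∀ {a b : K0} {n : ℕ}, (a * b) ^ n = 1 → (ψ a * ψ b) ^ n = 1 := fun e => by
    rw [← map_mul, ← map_pow, e, map_one]
  have t2 : ∀ {a : K0}, a * a = 1 → ψ a * ψ a = 1 := fun e => by rw [← map_mul, e, map_one]
  have x5 : ι S6.c2 * ψ x5 = ψ x5 * ι S6.c2 := by
    let ρ : centralizer ({ψ s0} : Set G) →* Perm (Fin 6) := π.comp
      ((((MulAut.conj g).toMonoidHom).comp (Subgroup.subtype _)).codRestrict _
        (fun v => mC (T3.mem_cent.mp v.2)))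
    have hρ : ∀ v, ρ v = 1 ↔ g * v * g⁻¹ ∈ zpowers (ψ a) := fun v => hk _
    have hρ' : ∀ v w, ρ v = ρ w → (v : G) * (w : G)⁻¹ = 1 ∨ (v : G) * (w : G)⁻¹ = ψ s0 :=
      fun v w e => by
        rw [← mul_inv_eq_one, ← map_inv, ← map_mul, hρ, mem_zpowers_two a2, ← hg, mul_left_inj,
          mul_right_inj, conj_eq_one_iff] at e
        exact e
    have m1 : ∀ {v w : G} {hv hw}, v * w = 1 → ρ ⟨v, hv⟩ * ρ ⟨w, hw⟩ = 1 := fun e => by
      rw [← map_mul, ← map_one ρ]; exact congrArg ρ (Subtype.ext e)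
    have m2 : ∀ {v w : G} {hv hw}, v * w = w * v → ρ ⟨v, hv⟩ * ρ ⟨w, hw⟩ = ρ ⟨w, hw⟩ * ρ ⟨v, hv⟩ :=
      fun e => by rw [← map_mul, ← map_mul]; exact congrArg ρ (Subtype.ext e)
    have m3 : ∀ {v w : G} {hv hw}, (v * w) ^ 3 = 1 → (ρ ⟨v, hv⟩ * ρ ⟨w, hw⟩) ^ 3 = 1 := fun e => by
      rw [← map_mul, ← map_pow, ← map_one ρ]; exact congrArg ρ (Subtype.ext e)
    have m4 : ∀ {v w : K0} {hv hw}, v * w⁻¹ ≠ 1 → v * w⁻¹ ≠ s0 → ρ ⟨ψ v, hv⟩ ≠ ρ ⟨ψ w, hw⟩ :=
      fun e1 e2 e => by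
        have := hρ' _ _ e
        simp only [← map_inv, ← map_mul] at this
        rw [← map_one ψ, h.inj.eq_iff, h.inj.eq_iff] at this
        exact this.elim e1 e2
    have := S6.s_cm (ρ ⟨ψ t, T3.mem_cent.mpr (h.comm.mpr p8.symm)⟩) (m1 (t2 r11))
      (ρ ⟨ψ S8K.t1, T3.mem_cent.mpr (h.comm.mpr p9.symm)⟩) (m1 (t2 k5)) (m4 k13 k14) (m3 (t1 k7))
      (ρ ⟨ψ S8K.x5, T3.mem_cent.mpr (h.comm.mpr k3)⟩) (m1 (t2 k6)) (m2 (h.comm.mpr k8))
      (m3 (t1 k9)) (m4 k15 k16) (ρ ⟨ψ a, T3.mem_cent.mpr (h.comm.mpr k4)⟩) (m1 a2)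
      (m2 (h.comm.mpr k10)) (m2 (h.comm.mpr k11)) (m3 (t1 k12))
      (ρ ⟨ι S6.c2, T3.mem_cent.mpr x0⟩) (m1 x2) (m3 x3) (m2 x4) (m2 x6) (fun e => by
        have := hρ' _ _ e
        simp only [inv_eq_of_mul_eq_one_right (t2 k5)] at this
        rw [← i4, ← i0, ← map_mul, ← map_one ι, hι.inj.eq_iff, hι.inj.eq_iff] at this
        obtain ⟨-, -, -, -, -, -, -, -, -, -, -, -, -, -, n1, n2⟩ := S6.s_rel
        exact this.elim n1 n2)
    rw [← conj_eq_iff, ← mul_inv_eq_one, ← map_inv, ← map_inv, ← map_mul, ← map_mul, ← map_mul,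
      hρ] at this
    have := hι.comm a2 (fun g hg => T3.mem_cent.mp hg) (mC x0) (mC (h.comm.mpr k3)) (by
      convert this using 1
      simp [mul_assoc])
    simpa [mul_assoc] using conj_comm (g := g⁻¹) this
  obtain ⟨Φ, hΦ⟩ := H4.CoxA.exists_hom (n := 7) (s := fun i => match i with
      | 0 => ψ s0 | 1 => ψ s1 | 2 => ι S6.c2 | 3 => ψ t | 4 => ψ S8K.t1 | 5 => ψ S8K.x5 | _ => ψ a)
    ⟨fun i hi => by
      interval_cases i
      exacts [t2 r8, t2 p1, x2, t2 r11, t2 k5, t2 k6, a2], fun i hi => by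
      have : i < 6 := by omega
      interval_cases i
      exacts [H4.braid_of_pow (t2 r8) (t2 p1) (t1 p2), H4.braid_of_pow (t2 p1) x2 x1,
        H4.braid_of_pow x2 (t2 r11) x3, H4.braid_of_pow (t2 r11) (t2 k5) (t1 k7),
        H4.braid_of_pow (t2 k5) (t2 k6) (t1 k9), H4.braid_of_pow (t2 k6) a2 (t1 k12)],
      fun i j h1 h2 => by
      have : i < 5 := by omega
      interval_cases i <;> interval_cases j
      exacts [x0.symm, h.comm.mpr p8, h.comm.mpr p9, h.comm.mpr k3.symm, h.comm.mpr k4.symm,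
        h.comm.mpr p10, h.comm.mpr p11, h.comm.mpr k17, h.comm.mpr k18, x4, x5, x6,
        h.comm.mpr k8, h.comm.mpr k10, h.comm.mpr k11]⟩
  obtain ⟨-, -, -, -, -, -, -, -, -, -, -, -, e0, e1, e2, e3, e4, e5, e6⟩ := S8.e_rel
  have hψ : (Φ.comp (MulAut.conj S8.kap).toMonoidHom).comp K0.subtype = ψ := by
    refine eq_on_cl _ _ ?_
    simp only [gK0, List.mem_cons, List.not_mem_nil, or_false]
    rintro c (rfl | rfl | rfl | rfl | rfl | rfl)
    · exact (congrArg Φ (e0.trans S8.adj0.symm)).trans (hΦ 0 (by norm_num))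
    · exact (congrArg Φ (e1.trans S8.adj1.symm)).trans (hΦ 1 (by norm_num))
    · exact (congrArg Φ (e3.trans S8.adj3.symm)).trans (hΦ 3 (by norm_num))
    · exact (congrArg Φ (e4.trans S8.adj4.symm)).trans (hΦ 4 (by norm_num))
    · exact (congrArg Φ (e5.trans S8.adj5.symm)).trans (hΦ 5 (by norm_num))
    · exact (congrArg Φ (e6.trans S8.adj6.symm)).trans (hΦ 6 (by norm_num))
  refine ⟨_, hψ, fun c hc => ?_, hι.card⟩
  have m : ∀ k, ψ k ∈ (Φ.comp (MulAut.conj S8.kap).toMonoidHom).range := fun k =>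
    ⟨k, by rw [← hψ]; rfl⟩
  have m' := range_le_of_gens ι (L := (Φ.comp (MulAut.conj S8.kap).toMonoidHom).range)
    (i0 ▸ m _) (i1 ▸ m _)
    ⟨S8.x2, (congrArg Φ (e2.trans S8.adj2.symm)).trans (hΦ 2 (by norm_num))⟩ (i3 ▸ m _) (i4 ▸ m _)
  obtain ⟨p, rfl | rfl⟩ := hι.dec c hc
  · exact m' p
  · exact mul_mem (m a) (m' p)

theorem caseA : Nonempty (G ≃* Perm (Fin 8)) := by
  obtain ⟨Φ, hΦ, hC, hc⟩ := h.exists_S8 hσ
  obtain ⟨r1, r2, r3, r4, r5, r6, r7, r8, r9, r10, r11, r12, -⟩ := S8.e_rel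
  obtain ⟨t1, t2, t3, t4⟩ := S8.e_T
  have e : ∀ k, ψ k = Φ k := fun k => by rw [← hΦ]; rfl
  have ea : ψ a = Φ S8.a := e a
  have ez : ψ z = Φ S8.z := e z
  have ey : ψ y = Φ S8.y := e y
  have hinj : Function.Injective Φ := injective_of_perm (by norm_num) Φ r12 (ez ▸ h.ne k_rel.2.1)
  have cm : ∀ K : Subgroup (Perm (Fin 8)), Nat.card (K.map Φ) = Nat.card K := fun K =>
    card_map_of_injective hinj
  have mc : ∀ {K : Subgroup (Perm (Fin 8))} {v}, (∀ r ∈ K, r * v = v * r) →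
      K.map Φ ≤ centralizer ({Φ v} : Set G) := fun hK => by
    rintro _ ⟨r, hr, rfl⟩
    rw [T3.mem_cent, ← map_mul, hK r hr, map_mul]
  have h9 : 9 ∣ Nat.card (centralizer ({Φ S8.a} : Set G)) := by
    rw [← ea, ← card_D, ← card_map_of_injective h.inj]
    exact card_dvd_of_le (le_normalizer.trans (h.NC hσ))
  have h5 : 5 ∣ Nat.card (centralizer ({Φ S8.a} : Set G)) := by
    have : Fact (Nat.Prime 5) := ⟨by norm_num⟩
    rw [← ea, card_cent_conj (b := ψ s0) (isConj_iff.mpr ⟨σ * ψ ka, by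
      rw [← hσ.us, ← k_A.1]; simp [mul_assoc]⟩), ← orderOf_eq_prime (x := ψ a5) (p := 5)
      (by rw [← map_pow, k_rel2.2.2.2.2.2.2.2.2.2.1, map_one])
      (h.ne k_rel2.2.2.2.2.2.2.2.2.2.2.1)]
    exact orderOf_dvd_natCard _ (T3.mem_cent.mpr (h.comm.mpr k_A.2.1))
  have h64 : ¬ 64 ∣ Nat.card (centralizer ({Φ S8.a} : Set G)) := fun h64 => by
    rw [ea] at hc
    exact ar1 _ Nat.card_pos hc h9
      h5 h64
  have pres : ∀ r, IsConj (Φ S8.a) (Φ r) → r.support.card = 2 := fun r hr => by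
    obtain ⟨g, hg⟩ := isConj_iff.mp hr
    have r2' : r * r = 1 := hinj (by
      rw [map_mul, ← hg, T3.conj_sq (by rw [← map_mul, r3, map_one]), map_one])
    have k : ∀ {v}, v * v = 1 → r.support.card = v.support.card → IsConj (Φ S8.a) (Φ v) :=
      fun hv e => hr.trans (Φ.map_isConj (isConj_of_invol r2' hv e))
    have h1 : r.support.card ≤ 8 := by simpa using Finset.card_le_univ r.support
    have h2 : 2 ∣ r.support.card := Perm.two_dvd_card_support (by rw [sq, r2'])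
    have h0 : r.support.card ≠ 0 := fun e => by
      rw [Perm.card_support_eq_zero.mp e, map_one, isConj_one_left, ← ea] at hr
      exact h.ne k_rel2.2.2.2.2.2.2.2.2.2.2.2.2.1 hr
    have h4 : r.support.card ≠ 4 := fun e => h64 (by
      rw [card_cent_conj (k r4 (e.trans r8.symm)), ← S8.card_T4, ← cm]
      exact card_dvd_of_le (mc t2))
    have h8 : r.support.card ≠ 8 := fun e => h64 (by
      rw [card_cent_conj (k r6 (e.trans r10.symm))]
      refine Dvd.dvd.trans (by rw [cm, S8.card_T8]; norm_num)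
        (card_dvd_of_le (mc (fun r hr => (t1 r hr).1))))
    have h6 : r.support.card ≠ 6 := fun e => r2 (hinj (by
      rw [map_mul, map_mul, ← ez]
      exact h.cent_z hσ (by rw [ey, ← map_mul, r1, map_mul]) (ea ▸ k r5 (e.trans r9.symm))))
    exact ar2 _ h1 h2 h0
      h4 h8 h6
  have hT : IsSylowIn 2 (S8.T8.map Φ) ⊤ := sylow_via le_top
    ((IsPGroup.of_card (n := 7) S8.card_T8).map Φ) (mem_map_of_mem Φ t4) (by
      rintro g ⟨r, hr, e⟩
      obtain ⟨l, hl, e'⟩ := (t1 r hr).2 (pres r (e ▸ isConj_mk g _))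
      exact ⟨Φ l, mem_map_of_mem Φ hl, by rw [← e, ← e']; simp⟩)
    (map_mono (fun r hr => (t3 r hr).1))
    (isSylowIn_of_card (k := 5) (le_inf le_top (mc (fun r hr => (t3 r hr).2)))
      (by rw [cm, S8.card_Ta]; rfl) (by rwa [top_inf_eq]))
  obtain ⟨N, hN, haN⟩ := thompson_transfer (L := ⊤) (A := (alternatingGroup (Fin 8)).map Φ)
    (u := Φ S8.a) (by
      have h1 := card_mul_relIndex_of_le hT.le
      have h2 := card_mul_relIndex_of_le (le_top : (alternatingGroup (Fin 8)).map Φ ≤ ⊤)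
      have h3 := hT.not_dvd
      have h4 := two_mul_nat_card_alternatingGroup (α := Fin 8)
      rw [Nat.card_perm, Nat.card_fin, show Nat.factorial 8 = 40320 from rfl] at h4
      rw [cm, S8.card_T8] at h1
      rw [cm, ar3 _ h4] at h2
      exact ar4 _ _ _ h1 h2
        h3) (mem_top _) (by rw [← map_mul, r3, map_one]) (by
      rintro g - ⟨r, hr, e⟩
      have h1 := pres r (e ▸ isConj_mk g _)
      have h2 := four_dvd_support (a := ⟨r, hr⟩) (Subtype.ext (hinj (by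
        change Φ (r * r) = Φ 1
        rw [map_mul, e, T3.conj_sq (by rw [← map_mul, r3, map_one]), map_one])))
      change 4 ∣ r.support.card at h2
      rw [h1] at h2
      exact absurd h2 (by norm_num))
  have hm := hN.mem_iff_alt Φ (fun p => mem_top _) r11 haN
  let φ : A8.A8 →* N := (Φ.comp (Subgroup.subtype _)).codRestrict N (fun p => (hm p).mpr p.2)
  have eD : D.map ψ = A8.D0.map Φ := by
    refine eq_of_le_of_card_ge ?_ (by rw [cm, card_map_of_injective h.inj, card_D, A8.card_D0])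
    rintro _ ⟨d, hd, rfl⟩
    exact ⟨d, hd, (e d).symm⟩
  have eN : S8.N8.map Φ = normalizer ((D.map ψ : Subgroup G) : Set G) := by
    refine eq_of_le_of_card_ge ?_ (by rw [cm, S8.card_N8, h.nD])
    rintro _ ⟨b, hb, rfl⟩
    rw [eD]
    refine mem_normalizer_of_conj_mem ?_
    rintro _ ⟨d, hd, rfl⟩
    exact ⟨_, (S8.e_K.2 b hb).2 d hd, by simp⟩
  have hE : A8.Emb φ := ⟨fun p q e => Subtype.ext (hinj (congrArg Subtype.val e)), fun g hg => by
      obtain ⟨k, hk⟩ := h.nz g (by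
        rw [ez]; exact hg.imp (congrArg Subtype.val) (congrArg Subtype.val))
      have h1 := (hm k).mp (by rw [← e, hk]; exact g.2)
      exact ⟨⟨k, h1⟩, S8.e_K.1 k k.2 h1, Subtype.ext ((e k).symm.trans hk)⟩, fun g hg => by
      obtain ⟨k, hk, e'⟩ := eN.ge ((h.cent_y' hσ.zw).1 (T3.mem_cent.mpr (show (g : G) * _ = _ by
        rw [ey]; exact congrArg Subtype.val hg)))
      have h1 := (hm k).mp (e' ▸ g.2)
      exact ⟨⟨k, h1⟩, (S8.e_K.2 k hk).1 h1, Subtype.ext e'⟩,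
    fun e => h.syl (e.trans (card_subgroup_dvd_card _))⟩
  refine ⟨(MulEquiv.ofBijective Φ ⟨hinj, fun g => ?_⟩).symm⟩
  rcases hN.mem_or (mem_top _) haN (mem_top g) with hg | hg
  · obtain ⟨p, hp⟩ := hE.surj ⟨g, hg⟩
    exact ⟨p, congrArg Subtype.val hp⟩
  · obtain ⟨p, hp⟩ := hE.surj ⟨_, hg⟩
    exact ⟨p * S8.a⁻¹, by
      rw [map_mul, map_inv, mul_inv_eq_iff_eq_mul]; exact congrArg Subtype.val hp⟩

end Pre

end Cfsg.Agent.H1.S8K
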