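import Cfsg.Agent.H1.S8Base
import Cfsg.Agent.H1.S8Data3

/-!
# Three-local recognition of `S_8`: construction of the exceptional group
-/

set_option autoImplicit false

namespace Cfsg.Agent.H1.S8K

open Subgroup Cfsg.Agent.H9 Cfsg.Agent.H1.T3 Cfsg.Agent.H1.PC Cfsg.Agent.L0.SC3 Equiv
open Cfsg.Agent.H1.A8 (T0 gT0)
open scoped Pointwise

variable {G : Type*} [Group G]

/-- The conjugate embedding. -/
def cj (ψ : K0 →* G) (σ : G) : K0 →* G := (MulAut.conj σ).toMonoidHom.comp ψ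

theorem cj_apply (ψ : K0 →* G) (σ : G) (k : K0) : cj ψ σ k = σ * ψ k * σ⁻¹ := rfl

theorem Sig.cj_cj {ψ : K0 →* G} {σ : G} {u : K0} (hσ : Sig ψ σ u) (g : G) :
    σ * (σ * g * σ⁻¹) * σ⁻¹ = g := by
  rw [inv_eq_of_mul_eq_one_right hσ.sq]
  calc _ = σ * σ * g * (σ * σ) := by group
    _ = _ := by rw [hσ.sq]; group

theorem Sig.ca {ψ : K0 →* G} {σ : G} (hσ : Sig ψ σ ta) :
    cj ψ σ u1 * ψ a * (cj ψ σ u1)⁻¹ = ψ a * ψ s0 := by
  have := congrArg (cj ψ σ) k_u.2.2.2.2.1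
  rwa [map_mul, map_mul, map_mul, map_inv, cj_apply ψ σ a, cj_apply ψ σ ta, hσ.aa, hσ.us] at this

theorem four {a b : G} (ha : a * a = 1) (hb : b * b = 1) (h : a * b = b * a) :
    a * b * a * b = 1 := by
  rw [mul_assoc a, ← h, ← mul_assoc, ha, one_mul, hb]

variable [Finite G]

namespace Pre

variable {ψ : K0 →* G} (h : Pre ψ) {σ : G} (hσ : Sig ψ σ ta)
include h hσ

omit [Finite G] hσ in
theorem ccomm {a b : K0} (e : a * b = b * a) : cj ψ σ a * cj ψ σ b = cj ψ σ b * cj ψ σ a := by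
  rw [← map_mul, e, map_mul]

theorem centN : centralizer ({ψ a} : Set G) ≤ normalizer ((D.map ψ : Subgroup G) : Set G) := by
  refine (h.dich hσ (Or.inr rfl)).resolve_right ?_
  rintro ⟨-, ι, -, hι, i0, i1, i3, i4⟩
  obtain ⟨u1', u2, u3, u4, u5, -, -, u8, -⟩ := k_u
  obtain ⟨-, -, -, -, r1, r2, r3, r4, r5, r6, r7, r8, r9, r10, -⟩ := S6.s_rel
  have a2 : ψ a * ψ a = 1 := by rw [← map_mul, k_rel2.2.2.2.2.2.2.2.2.2.2.2.1, map_one]
  have ac : ∀ p, Commute (ψ a) (ι p) := fun p => (T3.mem_cent.mp (hι.mem p)).symm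
  have c0 : Commute (cj ψ σ u1) (ι S6.c0) := by rw [i0, ← hσ.us]; exact h.ccomm u4
  have c3 : Commute (cj ψ σ u1) (ι S6.c3) := by rw [i3, ← hσ.su]; exact h.ccomm u3
  have cw : Commute (cj ψ σ u1) (ι (S6.c3 * S6.c4)) := by
    rw [map_mul, i3, i4, ← map_mul, ← mul_assoc, u8, one_mul, ← hσ.zw]; exact h.ccomm u2
  have ca : cj ψ σ u1 * ψ a * (cj ψ σ u1)⁻¹ = ψ a * ι S6.c0 := by
    rw [i0, hσ.ca]
  generalize cj ψ σ u1 = v at c0 c3 cw ca
  have cj' : ∀ {g}, Commute v g → v * g * v⁻¹ = g := fun e => conj_eq_iff.mpr e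
  have s : ∀ {p q : Perm (Fin 6)}, p * q = q * p → ι p * ι q = ι q * ι p := fun e => by
    rw [← map_mul, e, map_mul]
  have c00 : ι S6.c0 * ι S6.c0 = 1 := by rw [i0, ← map_mul, k_rel.2.2.2.2.2.2.2.1, map_one]
  have ce : Commute v (ι S6.e0) := by
    have e1 := conj_comm (g := v) (s r6)
    have e2 := conj_comm (g := v) (s r7)
    have e3 : (v * ι (S6.c3 * S6.e0) * v⁻¹ * ι (S6.c3 * S6.c4)) ^ 3 = 1 := by
      rw [← cj' cw, conj_mul, ← map_mul]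
      exact conj_cube (by rw [← map_pow, r8, map_one])
    have e4 := conj_comm (g := v) ((ac (S6.c3 * S6.e0)).mul_left (s r6).symm).symm.eq
    rw [cj' c0] at e1
    rw [cj' c3] at e2
    rw [← conj_mul, ca, cj' c0, mul_assoc (ψ a), c00, mul_one] at e4
    obtain ⟨p, e | e⟩ := hι.dec _ (T3.mem_cent.mpr e4)
    · rw [e] at e1 e2 e3
      have := S6.s_e p (hι.inj (by
          rw [map_mul, ← e, T3.conj_sq (by rw [← map_mul, r5, map_one]), map_one]))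
        (hι.inj (by simpa using e1)) (hι.inj (by simpa using e2)) (hι.inj (by simpa using e3))
        (fun e' => conj_ne_one (g := v) (fun e => r9 (hι.inj (e.trans (map_one ι).symm)))
          (by rw [e, e', map_one]))
      rw [this, conj_eq_iff] at e
      have := c3.mul_right e
      rwa [← map_mul, ← mul_assoc, r10, one_mul] at this
    · rw [e, mul_assoc, ← map_mul, (ac _).mul_pow, pow_succ, sq, a2, one_mul, ← map_pow,
        mul_eq_one_iff_eq_inv, ← map_inv] at e3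
      exact absurd e3.symm (hι.ne _)
  have step : ∀ (v : G) (p : Perm (Fin 6)), v * ψ a * v⁻¹ = ψ a * ι p ∧ Commute v (ι S6.c0) ∧
      Commute v (ι S6.c3) ∧ Commute v (ι S6.e0) → ι S6.r * v * (ι S6.r)⁻¹ * ψ a *
      (ι S6.r * v * (ι S6.r)⁻¹)⁻¹ = ψ a * ι (S6.r * p * S6.r⁻¹) ∧
      Commute (ι S6.r * v * (ι S6.r)⁻¹) (ι S6.c0) ∧ Commute (ι S6.r * v * (ι S6.r)⁻¹) (ι S6.c3) ∧
      Commute (ι S6.r * v * (ι S6.r)⁻¹) (ι S6.e0) := fun v p ⟨e0, e1, e2, e3⟩ => by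
    have k : ∀ {p q}, S6.r * p * S6.r⁻¹ = q → Commute v (ι p) →
        Commute (ι S6.r * v * (ι S6.r)⁻¹) (ι q) := fun e e' => by
      rw [← e, map_mul, map_mul, map_inv]; exact conj_comm e'
    refine ⟨?_, k r3 e3, k r1 e1, k r2 e2⟩
    have e4 : ι S6.r * ψ a * (ι S6.r)⁻¹ = ψ a := conj_eq_iff.mpr (ac _).symm
    conv_lhs => rw [← e4]
    conv_rhs => rw [← e4, map_mul, map_mul, map_inv, conj_mul, ← e0]
    group
  have s1 := step v _ ⟨ca, c0, c3, ce⟩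
  have s2 := step _ _ s1
  rw [r1] at s1 s2
  rw [r2] at s2
  generalize ι S6.r * v * (ι S6.r)⁻¹ = v2 at s1 s2
  generalize ι S6.r * v2 * (ι S6.r)⁻¹ = v3 at s2
  have e5 : v * (v2 * (v3 * ψ a * v3⁻¹) * v2⁻¹) * v⁻¹ = ι S6.gt * (ψ a * ι S6.tau) * (ι S6.gt)⁻¹ := by
    rw [s2.1, ← conj_mul (b := v2), s1.1, conj_eq_iff.mpr s1.2.2.2, ← conj_mul (b := v),
      ← conj_mul (b := v), ca, cj' c3, cj' ce, ← conj_mul (b := ι S6.gt),
      conj_eq_iff.mpr (ac S6.gt).symm, ← map_inv, ← map_mul, ← map_mul, r4]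
    simp [mul_assoc]
  have e6 : IsConj (ψ a) (ψ a * ι S6.tau) :=
    (((isConj_mk v3 _).trans (isConj_mk v2 _)).trans (isConj_mk v _)).trans
      (e5 ▸ (isConj_mk _ _).symm)
  obtain ⟨p, hp⟩ := hι.dec σ (h.NC hσ hσ.mem)
  have e7 : ∀ q, σ * ι q * σ⁻¹ = ι (p * q * p⁻¹) := fun q => by
    rcases hp with rfl | rfl
    · simp
    · rw [← conj_eq_iff.mpr (ac (p * q * p⁻¹))]; simp [mul_assoc]
  have e8 := S6.s_tau p (hι.inj (by rw [← e7, i0, i3, hσ.su])) (hι.inj (by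
    rw [← e7, i1, i4, k_rel3.2.2.2.1, map_mul, map_mul, ← conj_mul, hσ.su, hσ.zw])) (hι.inj (by
    have := hσ.sq
    rcases hp with rfl | rfl
    · simpa using this
    · rw [← sq, (ac _).mul_pow, sq, sq, a2] at this
      simpa using this))
  subst e8
  rcases hp with e | e
  · exact (h.not_conj_sig hσ).2 (by rwa [conj_eq_iff.mp hσ.aa, e])
  · exact (h.not_conj_sig hσ).1 (by rwa [e])

theorem memB' {g : G} (hg : g ∈ normalizer ((D.map ψ : Subgroup G) : Set G))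
    (e : g * ψ s0 = ψ s0 * g) : g ∈ B.map ψ := by
  refine (h.memN hσ hg).resolve_right ?_
  rintro ⟨b, hb, eb⟩
  refine (k_BD b hb).2.1 (h.inj ?_)
  rw [map_mul, map_mul, map_inv, eb, ← conj_eq_iff.mpr e, ← hσ.us]
  group

theorem comm_u : ψ u1 * cj ψ σ u1 = cj ψ σ u1 * ψ u1 := by
  obtain ⟨u1', u2, u3, u4, u5, u6, u7, u8, u9, u10, u11, u12, u13, -⟩ := k_u
  have c0 : Commute (cj ψ σ u1) (ψ s0) := by rw [← hσ.us]; exact h.ccomm u4
  have c3 : Commute (cj ψ σ u1) (ψ ta) := by rw [← hσ.su]; exact h.ccomm u3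
  have cw : Commute (cj ψ σ u1) (ψ w) := by rw [← hσ.zw]; exact h.ccomm u2
  have d0 : Commute (ψ u1) (ψ s0) := h.comm.mpr u3
  have d3 : Commute (ψ u1) (ψ ta) := h.comm.mpr u4
  have ca := hσ.ca
  have da : ψ u1 * ψ a * (ψ u1)⁻¹ = ψ a * ψ ta := by
    rw [← map_inv, ← map_mul, ← map_mul, u5, map_mul]
  have e1 : ψ u1 * ψ u1 = 1 := by rw [← map_mul, u1', map_one]
  have e2 : cj ψ σ u1 * cj ψ σ u1 = 1 := by rw [← map_mul, u1', map_one]
  have e3 : σ * cj ψ σ u1 * σ⁻¹ = ψ u1 := hσ.cj_cj _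
  have e4 : σ * ψ u1 * σ⁻¹ = cj ψ σ u1 := rfl
  have e5 : (cj ψ σ u1 * (ψ u1 * ψ w) * (cj ψ σ u1)⁻¹) ^ 5 = 1 := by
    rw [conj_pow, ← map_mul, ← map_pow, u6]; simp
  generalize cj ψ σ u1 = v at c0 c3 cw ca e2 e3 e4 e5
  have s2 : ψ s0 * ψ s0 = 1 := by rw [← map_mul, k_rel.2.2.2.2.2.2.2.1, map_one]
  have t2 : ψ ta * ψ ta = 1 := by rw [← map_mul, u8, map_one]
  have st : Commute (ψ s0) (ψ ta) := h.comm.mpr k_rel3.2.2.2.2.2.2.2.2.2.2.2.1
  have f1 : ψ u1 * v * ψ a * (ψ u1 * v)⁻¹ = ψ a * (ψ ta * ψ s0) := by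
    calc _ = ψ u1 * (v * ψ a * v⁻¹) * (ψ u1)⁻¹ := by group
      _ = _ := by rw [ca, ← conj_mul, da, conj_eq_iff.mpr d0, mul_assoc]
  have f2 : ψ u1 * v * (ψ u1 * v) * ψ a = ψ a * (ψ u1 * v * (ψ u1 * v)) := by
    rw [← conj_eq_iff]
    calc _ = ψ u1 * v * (ψ u1 * v * ψ a * (ψ u1 * v)⁻¹) * (ψ u1 * v)⁻¹ := by group
      _ = _ := by
        rw [f1, ← conj_mul, f1, conj_eq_iff.mpr ((d3.mul_right d0).mul_left (c3.mul_right c0)),
          mul_assoc, ← sq, st.symm.mul_pow, sq, sq, s2, t2, mul_one, mul_one]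
  have f3 : Commute (ψ u1 * v * (ψ u1 * v)) (ψ s0) := (d0.mul_left c0).mul_left (d0.mul_left c0)
  have f4 : Commute (ψ u1 * v * (ψ u1 * v)) (ψ ta) := (d3.mul_left c3).mul_left (d3.mul_left c3)
  obtain ⟨k, hk, ek⟩ := h.memB' hσ (h.centN hσ (T3.mem_cent.mpr f2)) f3
  rw [← ek] at f3 f4
  obtain ⟨-, k2, k3⟩ := k_B2 k hk (h.comm.mp f3) (h.comm.mp f4)
  have i1 := inv_eq_of_mul_eq_one_right e1
  have i2 := inv_eq_of_mul_eq_one_right e2
  have f5 : v * ψ u1 * (v * ψ u1) = ψ k := by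
    rw [← inv_eq_of_mul_eq_one_right k2, map_inv, ek]
    simp only [mul_inv_rev, i1, i2]
  have f6 : σ * ψ k * σ⁻¹ = ψ k := by
    conv_lhs => rw [ek, ← conj_mul, ← conj_mul, e3, e4]
    exact f5
  rcases k3 (h.comm.mp (by
    conv_rhs => rw [← f5]
    rw [ek]; group)) with rfl | rfl | rfl | rfl
  · rw [map_one, eq_comm, ← eq_inv_iff_mul_eq_one, mul_inv_rev, i1, i2] at ek
    exact ek
  · exact absurd (h.inj (f6.symm.trans hσ.su)) u11
  · exact absurd (h.inj (hσ.us.symm.trans f6)) u11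
  · refine absurd (h.inj ?_) u7
    rw [← conj_mul, conj_eq_iff.mpr cw, show v * ψ u1 * v⁻¹ = ψ u1 * ψ (s0 * ta) by
      rw [ek, i2, ← mul_assoc, ← mul_assoc, ← mul_assoc, e1, one_mul]] at e5
    simpa using e5

theorem comm_L (p q : L) :
    Commute ((ψ.comp L.subtype) p) (((cj ψ σ).comp L.subtype) q) := by
  have k : ∀ {q : K0}, q ∈ L → ∀ g : G, g * cj ψ σ u1 = cj ψ σ u1 * g → g * ψ z = ψ z * g →
      g * ψ s0 = ψ s0 * g → g * cj ψ σ q = cj ψ σ q * g := fun hq g e1 e2 e3 =>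
    (T3.mem_cent.mp (cl_induction le_L (B := (centralizer ({g} : Set G)).comap (cj ψ σ)) (by
      simp only [gL0, List.mem_cons, List.not_mem_nil, or_false]
      rintro c (rfl | rfl | rfl)
      · exact T3.mem_cent.mpr e1.symm
      · exact T3.mem_cent.mpr (by rw [← hσ.wz] at e2; exact e2.symm)
      · exact T3.mem_cent.mpr (by rw [← hσ.us] at e3; exact e3.symm)) hq)).symm
  refine k q.2 _ ?_ (h.comm.mpr (k_Ls.1 p p.2).2) (h.comm.mpr (k_Ls.1 p p.2).1)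
  exact T3.mem_cent.mp (cl_induction le_L (B := (centralizer ({cj ψ σ u1} : Set G)).comap ψ) (by
    simp only [gL0, List.mem_cons, List.not_mem_nil, or_false]
    rintro c (rfl | rfl | rfl)
    · exact T3.mem_cent.mpr (h.comm_u hσ)
    · exact T3.mem_cent.mpr (show ψ w * _ = _ * ψ w by rw [← hσ.zw]; exact h.ccomm k_u.2.1.symm)
    · exact T3.mem_cent.mpr (show ψ ta * _ = _ * ψ ta by rw [← hσ.su]; exact h.ccomm k_u.2.2.1.symm)) p.2)

open S8T in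
theorem exists_T : ∃ θ : T0 →* G, Function.Injective θ ∧ θ v1 = ψ s0 ∧ θ v2 = cj ψ σ u1 ∧
    θ w1 = ψ ta ∧ θ w2 = ψ u1 ∧ θ x = ψ a ∧ θ sg = σ := by
  obtain ⟨u1', u2, u3, u4, u5, -, -, u8, u9, u10, u11, u12, u13, -, -, -, -, -, -, -, u21, u22, u23,
    -⟩ := k_u
  have t : ∀ {a : K0}, a * a = 1 → ψ a * ψ a = 1 := fun e => by rw [← map_mul, e, map_one]
  have s2 := t k_rel.2.2.2.2.2.2.2.1
  have t2 := t u8
  have a2 := t k_rel2.2.2.2.2.2.2.2.2.2.2.2.1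
  have e1 := t u1'
  have e2 : cj ψ σ u1 * cj ψ σ u1 = 1 := by rw [← map_mul, u1', map_one]
  have i := inv_eq_of_mul_eq_one_right hσ.sq
  have st := k_rel3.2.2.2.2.2.2.2.2.2.2.2.1
  have k : ∀ {a b : G}, b * b = 1 → σ * a * σ⁻¹ = b → σ * a * σ * b = 1 := fun e e' => by
    rw [← e, ← e', i]
  obtain ⟨θ, f1, f2, f3, f4, f5, f6⟩ := t64_hom s2 e2 t2 e1 a2 hσ.sq
    (four s2 e2 (by rw [← hσ.us]; exact h.ccomm u4.symm)) (four s2 t2 (h.comm.mpr st))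
    (four s2 e1 (h.comm.mpr u3.symm)) (four e2 t2 (by rw [← hσ.su]; exact h.ccomm u3))
    (four e2 e1 (h.comm_u hσ).symm) (four t2 e1 (h.comm.mpr u4.symm))
    (four a2 s2 (h.comm.mpr k_A.2.2.2.1)) (four a2 t2 (h.comm.mpr u10.symm)) (by
      rw [← hσ.aa, ← hσ.us, ← cj_apply, ← cj_apply, ← map_mul, ← map_mul, ← map_mul, ← map_mul,
        u21, map_one]) (by rw [← map_mul, ← map_mul, ← map_mul, ← map_mul, u21, map_one])
    (k t2 hσ.su) (k e1 (hσ.cj_cj _)) (k a2 hσ.aa)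
  refine ⟨θ, (injective_iff_map_eq_one θ).mpr (fun r hr => ?_), f1, f2, f3, f4, f5, f6⟩
  by_contra r1
  refine h.ne u23 ?_
  rw [st, map_mul, ← f1, ← f3, ← map_mul]
  rcases t_inj r r1 with e | ⟨e, e' | ⟨f, e'⟩⟩
  · rwa [← e]
  · rw [← e']; simp [hr]
  · rw [← e']; simp [hr]

end Pre

end Cfsg.Agent.H1.S8K
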