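import Cfsg.Agent.H1.S8B1

/-!
# Three-local recognition of `S_8`: two-local analysis of the exceptional group
-/

set_option autoImplicit false

namespace Cfsg.Agent.H1.S8K

open Subgroup Cfsg.Agent.H9 Cfsg.Agent.H1.T3 Cfsg.Agent.H1.PC Cfsg.Agent.L0.SC3 Equiv
open Cfsg.Agent.H1.A8 (T0 gT0 card_T0)
open Cfsg.Agent.H1.S8T (v1 v2 w1 w2 x sg E V W T1 Es Ra Rb R16 R8 F8 t_cl t_E t_key t_c t_m)
open scoped Pointwise

variable {G : Type*} [Group G] [Finite G]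

/-- The configuration in the exceptional case. -/
structure Cfg (ψ : K0 →* G) (σ : G) (θ : T0 →* G) (N : Subgroup G) : Prop where
  pre : Pre ψ
  sig : Sig ψ σ ta
  inj : Function.Injective θ
  e1 : θ v1 = ψ s0
  e2 : θ v2 = cj ψ σ u1
  e3 : θ w1 = ψ ta
  e4 : θ w2 = ψ u1
  e5 : θ x = ψ a
  e6 : θ sg = σ
  mem : ∀ g, g ∈ N ↔ ∃ p ∈ L, ∃ q ∈ L, ψ p * cj ψ σ q = g
  comm : ∀ p ∈ L, ∀ q ∈ L, ψ p * cj ψ σ q = cj ψ σ q * ψ p

theorem ar5 : ∀ n m : ℕ, n ∣ 72 → ¬ 2 ^ (3 + 1) ∣ n := by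
  intro n _ h h'
  exact absurd (h'.trans h) (by norm_num)

namespace Cfg

variable {ψ : K0 →* G} {σ : G} {θ : T0 →* G} {N : Subgroup G} (h : Cfg ψ σ θ N)
include h

omit [Finite G] in
theorem m1 {p : K0} (hp : p ∈ L) : ψ p ∈ N := (h.mem _).mpr ⟨p, hp, 1, one_mem _, by simp⟩

omit [Finite G] in
theorem m2 {p : K0} (hp : p ∈ L) : cj ψ σ p ∈ N := (h.mem _).mpr ⟨1, one_mem _, p, hp, by simp⟩

omit [Finite G] in
theorem uniq {p q : K0} (hp : p ∈ L) (hq : q ∈ L) (e : ψ p * cj ψ σ q = 1) : p = 1 ∧ q = 1 := by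
  have h1 : p = 1 := by
    by_contra p1
    obtain ⟨m, hm, e'⟩ := (k_L p hp).2.2.2.1 p1
    refine e' (h.pre.comm.mp ?_)
    rw [eq_inv_of_mul_eq_one_left e, ← map_inv]
    exact h.comm m hm _ (inv_mem hq)
  rw [h1, map_one, one_mul, cj_apply, conj_eq_one_iff, ← map_one ψ] at e
  exact ⟨h1, h.pre.inj e⟩

omit [Finite G] in
theorem mul_eq {p q p' q' : K0} (hq : q ∈ L) (hp' : p' ∈ L) :
    ψ p * cj ψ σ q * (ψ p' * cj ψ σ q') = ψ (p * p') * cj ψ σ (q * q') := by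
  rw [map_mul, map_mul, mul_assoc, ← mul_assoc (cj ψ σ q), ← h.comm p' hp' q hq]; group

omit [Finite G] in
theorem eq_iff {p q p' q' : K0} (hp : p ∈ L) (hq : q ∈ L) (hp' : p' ∈ L) (hq' : q' ∈ L)
    (e : ψ p * cj ψ σ q = ψ p' * cj ψ σ q') : p = p' ∧ q = q' := by
  have := h.uniq (mul_mem (inv_mem hp') hp) (mul_mem hq (inv_mem hq')) (by
    rw [map_mul, map_mul, map_inv, map_inv, mul_assoc, ← mul_assoc (ψ p), e]; group)
  rwa [inv_mul_eq_one, mul_inv_eq_one, eq_comm] at this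

omit [Finite G] in
theorem ej : θ (w1 * v1) = ψ ta * cj ψ σ ta := by rw [map_mul, h.e3, h.e1, cj_apply, h.sig.us]

omit [Finite G] in
theorem EN {r : T0} (hr : r ∈ E) : θ r ∈ N := by
  refine cl_induction S8T.le_E (B := N.comap θ) ?_ hr
  obtain ⟨-, -, -, -, -, -, -, -, -, -, -, -, -, -, -, m1, -, m3, -⟩ := k_u
  simp only [S8T.gE0, List.mem_cons, List.not_mem_nil, or_false]
  rintro c (rfl | rfl | rfl | rfl)
  · exact show θ v1 ∈ N from (h.e1.trans h.sig.us.symm).symm ▸ h.m2 m3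
  · exact show θ v2 ∈ N from h.e2.symm ▸ h.m2 m1
  · exact show θ w1 ∈ N from h.e3.symm ▸ h.m1 m3
  · exact show θ w2 ∈ N from h.e4.symm ▸ h.m1 m1

theorem TN : θ.range ≤ normalizer (N : Set G) := by
  rintro _ ⟨r, rfl⟩
  have hr : r ∈ (cl 8 gT0).subgroupOf T0 := r.2
  refine cl_induction le_rfl (B := (normalizer (N : Set G)).comap θ) ?_ hr
  obtain ⟨-, -, -, -, m1, m2, -, -, -, m3, m4, -⟩ := t_m
  simp only [gT0, List.mem_cons, List.not_mem_nil, or_false]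
  rintro c (rfl | rfl | rfl | rfl | rfl | rfl)
  · exact le_normalizer (h.EN (m3 _ m1))
  · exact le_normalizer (h.EN (m3 _ m2))
  · exact le_normalizer (h.EN (m4 w1 (dec_mem_cl (by simp [S8T.gW0]))))
  · exact le_normalizer (h.EN (m4 w2 (dec_mem_cl (by simp [S8T.gW0]))))
  · change θ x ∈ normalizer (N : Set G)
    refine mem_normalizer_of_conj_mem (fun g hg => ?_)
    obtain ⟨p, hp, q, hq, rfl⟩ := (h.mem g).mp hg
    refine (h.mem _).mpr ⟨_, (k_L p hp).1, _, (k_L q hq).1, ?_⟩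
    rw [h.e5, ← conj_mul, map_mul, map_mul, map_mul, map_mul, map_inv, map_inv, cj_apply ψ σ a,
      h.sig.aa]
  · change θ sg ∈ normalizer (N : Set G)
    refine mem_normalizer_of_conj_mem (fun g hg => ?_)
    obtain ⟨p, hp, q, hq, rfl⟩ := (h.mem g).mp hg
    rw [h.e6, ← conj_mul, cj_apply, h.sig.cj_cj]
    exact mul_mem (h.m2 hp) (h.m1 hq)

omit [Finite G] in
theorem clsN {g : G} (hg : g ∈ N) (h2 : g * g = 1) (h1 : g ≠ 1) : ∃ n ∈ N, n * g * n⁻¹ = ψ ta ∨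
    n * g * n⁻¹ = θ v1 ∨ n * g * n⁻¹ = θ (w1 * v1) := by
  obtain ⟨p, hp, q, hq, rfl⟩ := (h.mem g).mp hg
  rw [h.mul_eq hq hp] at h2
  obtain ⟨p2, q2⟩ := h.uniq (mul_mem hp hp) (mul_mem hq hq) h2
  have k : ∀ {l m}, l ∈ L → m ∈ L → ψ l * cj ψ σ m * (ψ p * cj ψ σ q) * (ψ l * cj ψ σ m)⁻¹ =
      ψ (l * p * l⁻¹) * cj ψ σ (m * q * m⁻¹) := fun hl hm => by
    rw [mul_inv_rev, ← map_inv, ← map_inv, ← h.comm _ (inv_mem hl) _ (inv_mem hm), h.mul_eq hm hp,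
      h.mul_eq (mul_mem hm hq) (inv_mem hl)]
  rcases (k_L p hp).2.1 p2 with rfl | ⟨l, hl, el⟩ <;> rcases (k_L q hq).2.1 q2 with rfl | ⟨m, hm, em⟩
  · simp at h1
  · exact ⟨_, mul_mem (h.m1 (one_mem _)) (h.m2 hm), Or.inr (Or.inl (by
      rw [k (one_mem _) hm, em, h.e1, ← h.sig.us, cj_apply]; simp))⟩
  · exact ⟨_, mul_mem (h.m1 hl) (h.m2 (one_mem _)), Or.inl (by rw [k hl (one_mem _), el]; simp)⟩
  · exact ⟨_, mul_mem (h.m1 hl) (h.m2 hm), Or.inr (Or.inr (by rw [k hl hm, el, em, h.ej]))⟩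

omit [Finite G] in
theorem clsN' {g : G} (hg : g ∈ N) (h2 : g * g = 1) (h1 : g ≠ 1) :
    IsConj g (θ v1) ∨ IsConj g (θ (w1 * v1)) := by
  obtain ⟨n, -, e | e | e⟩ := h.clsN hg h2 h1
  · exact Or.inl ((e ▸ isConj_mk n g).trans (by rw [h.e1, ← h.sig.us]; exact isConj_mk _ _))
  · exact Or.inl (e ▸ isConj_mk n g)
  · exact Or.inr (e ▸ isConj_mk n g)

omit [Finite G] in
theorem cm (K : Subgroup T0) : Nat.card (K.map θ) = Nat.card K := card_map_of_injective h.inj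

omit [Finite G] h in
theorem mc {K : Subgroup T0} {v : T0} (hK : ∀ r ∈ K, r * v = v * r) :
    K.map θ ≤ centralizer ({θ v} : Set G) := by
  rintro _ ⟨r, hr, rfl⟩
  rw [T3.mem_cent, ← map_mul, hK r hr, map_mul]

theorem cA : centralizer ({θ x} : Set G) = normalizer ((D.map ψ : Subgroup G) : Set G) := by
  rw [h.e5]; exact le_antisymm (h.pre.centN h.sig) (h.pre.NC h.sig)

omit [Finite G] in
theorem d32 : 32 ∣ Nat.card (centralizer ({θ v1} : Set G)) := by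
  rw [← S8T.card_T1, ← h.cm]; exact card_dvd_of_le (mc t_c.1)

omit [Finite G] in
theorem d64 : 64 ∣ Nat.card (centralizer ({θ (w1 * v1)} : Set G)) := by
  rw [← card_T0, ← card_top, ← h.cm]; exact card_dvd_of_le (mc (fun r _ => (t_E.2.2.2 r).2.1))

omit [Finite G] in
theorem not_conj_N {u g : G} (hu : u ≠ 1) (hc : ¬ 32 ∣ Nat.card (centralizer ({u} : Set G)))
    (hg : g ∈ N) (h2 : g * g = 1) : ¬ IsConj u g := fun e => by
  rcases h.clsN' hg h2 (by rintro rfl; exact hu (isConj_one_left.mp e)) with e' | e'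
  · exact hc (card_cent_conj (e.trans e') ▸ h.d32)
  · exact hc (card_cent_conj (e.trans e') ▸ Dvd.dvd.trans (by norm_num) h.d64)

theorem aN {g : G} (hg : g ∈ N) (h2 : g * g = 1) : ¬ IsConj (θ x) g :=
  h.not_conj_N (h.e5 ▸ h.pre.ne k_rel2.2.2.2.2.2.2.2.2.2.2.2.2.1)
    (by rw [h.cA, h.pre.nD]; norm_num) hg h2

theorem via {R : Subgroup T0} (hcl : ∀ r ∈ R, r * r = 1 → r ∈ E ∨ (∃ e ∈ R, e * r * e⁻¹ = x) ∨
    ∃ e : T0, e * r * e⁻¹ = sg ∨ e * r * e⁻¹ = sg * x) (g : G) (hg : g * θ x * g⁻¹ ∈ R.map θ) :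
    ∃ r ∈ R.map θ, r * (g * θ x * g⁻¹) * r⁻¹ = θ x := by
  obtain ⟨r, hr, e⟩ := hg
  have e2 : θ r * θ r = 1 := by
    rw [e, T3.conj_sq (by rw [h.e5, ← map_mul, k_rel2.2.2.2.2.2.2.2.2.2.2.2.1, map_one])]
  have hc : IsConj (θ x) (θ r) := e ▸ isConj_mk _ _
  rcases hcl r hr (h.inj (by rw [map_mul, e2, map_one])) with e' | ⟨l, hl, e'⟩ | ⟨l, e' | e'⟩
  · exact (h.aN (h.EN e') e2 hc).elim
  · exact ⟨θ l, mem_map_of_mem θ hl, by rw [← e, ← e']; simp⟩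
  · refine ((h.pre.not_conj_sig h.sig).1 ?_).elim
    rw [← h.e5, ← h.e6, ← e']
    exact hc.trans (θ.map_isConj (isConj_mk _ _))
  · refine ((h.pre.not_conj_sig h.sig).2 ?_).elim
    rw [← h.e5, ← h.e6, ← map_mul, ← e']
    exact hc.trans (θ.map_isConj (isConj_mk _ _))

omit [Finite G] h in
theorem p2 (K : Subgroup T0) : IsPGroup 2 (K.map θ) :=
  ((IsPGroup.of_card (n := 6) card_T0).to_subgroup K).map θ

theorem syl16 : IsSylowIn 2 (R16.map θ) (centralizer ({θ x} : Set G)) :=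
  isSylowIn_of_card (k := 4) (mc t_c.2.2.2.1) (by rw [h.cm, S8T.card_R16]; rfl)
    (by rw [h.cA, h.pre.nD]; norm_num)

theorem sylT : IsSylowIn 2 ((⊤ : Subgroup T0).map θ) ⊤ :=
  sylow_via le_top (p2 _) (mem_map_of_mem θ (mem_top x))
    (h.via (fun r _ h2 => by simpa using t_cl.1 r h2)) (map_mono le_top)
    (by rw [top_inf_eq]; exact h.syl16)

theorem sylT1 : IsSylowIn 2 (T1.map θ) (centralizer ({θ v1} : Set G)) := by
  obtain ⟨c1, -, -, c4, -, c6, -, c8, -⟩ := t_c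
  refine sylow_via (R0 := F8.map θ) (mc c1) (p2 _) (mem_map_of_mem θ c8) (h.via t_cl.2.1)
    (map_mono (fun r hr => (c6 r hr).1)) (isSylowIn_of_card (k := 3) (le_inf
      (mc (fun r hr => c1 r (c6 r hr).1)) (mc (fun r hr => c4 r (c6 r hr).2)))
      (by rw [h.cm, S8T.card_F8]; rfl) (ar5 _ 0 ?_))
  rw [← card_B, ← card_map_of_injective h.pre.inj]
  exact card_dvd_of_le (fun g hg => h.pre.memB' h.sig (h.cA ▸ hg.2)
    (h.e1 ▸ T3.mem_cent.mp hg.1))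

theorem n32 {s : T0} (hs : s = sg ∨ s = sg * x) :
    ¬ 32 ∣ Nat.card (centralizer ({θ s} : Set G)) := by
  obtain ⟨-, c2, c3, c4, c5, -, -, -, c9, c10, c11⟩ := t_c
  obtain ⟨R, r1, r2, r3, r4, r5⟩ : ∃ R : Subgroup T0, (∀ r ∈ R, r * s = s * r) ∧ x ∈ R ∧ R8 ≤ R ∧
      Nat.card R = 16 ∧ ∀ r ∈ R, r * r = 1 → r ∈ E ∨ (∃ e ∈ R, e * r * e⁻¹ = x) ∨
      ∃ e : T0, e * r * e⁻¹ = sg ∨ e * r * e⁻¹ = sg * x := by
    rcases hs with rfl | rfl
    · exact ⟨Ra, c2, c9, fun r hr => (c5 r hr).1, S8T.card_Ra, t_cl.2.2.1⟩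
    · exact ⟨Rb, c3, c10, fun r hr => (c5 r hr).2.1, S8T.card_Rb, t_cl.2.2.2⟩
  have := sylow_via (R0 := R8.map θ) (mc r1) (p2 _) (mem_map_of_mem θ r2) (h.via r5) (map_mono r3)
    (isSylowIn_of_card (k := 3) (le_inf (mc (fun r hr => r1 r (r3 hr)))
      (mc (fun r hr => c4 r (c5 r hr).2.2))) (by rw [h.cm, S8T.card_R8]; rfl) (fun hd => by
      obtain ⟨g, hg, e⟩ := exists_conj_sylow_le h.syl16 inf_le_right
        (by rwa [h.cm, S8T.card_R16])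
      have h1 := conj_comm (g := g⁻¹)
        (T3.mem_cent.mp (e (conj_mem_conj_smul (mem_map_of_mem θ c11) g)).1)
      rw [show g⁻¹ * (g * θ v1 * g⁻¹) * g⁻¹⁻¹ = θ v1 by group, h.e1] at h1
      rw [h.cA] at hg
      have aB := mem_map_of_mem ψ k_rel2.2.2.2.2.2.2.1
      have h2 : θ s ∈ normalizer ((D.map ψ : Subgroup G) : Set G) := by
        rcases hs with rfl | rfl
        · exact h.e6 ▸ h.sig.mem
        · rw [map_mul, h.e6, h.e5]; exact mul_mem h.sig.mem (h.pre.BN aB)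
      have h3 := (h.pre.idx.conj h2 (inv_mem hg)).mp (h.pre.memB' h.sig
        (mul_mem (mul_mem (inv_mem hg) h2) (inv_mem (inv_mem hg))) h1.symm)
      refine h.pre.sigB h.sig ?_
      rcases hs with rfl | rfl
      · exact h.e6 ▸ h3
      · rw [map_mul, h.e6, h.e5] at h3
        simpa using mul_mem h3 (inv_mem aB)))
  have h1 := card_mul_relIndex_of_le this.le
  rw [h.cm, r4] at h1
  rw [← h1]
  exact fun e => this.not_dvd (Nat.dvd_of_mul_dvd_mul_left (by norm_num : 0 < 16) e)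

theorem sN {s : T0} (hs : s = sg ∨ s = sg * x) {g : G} (hg : g ∈ N) (h2 : g * g = 1) :
    ¬ IsConj (θ s) g := h.not_conj_N (fun e => h.n32 hs (by
      rw [e]
      refine h.d32.trans (card_dvd_of_le (fun g _ => ?_))
      simp [T3.mem_cent])) (h.n32 hs) hg h2

theorem n64 : ¬ 64 ∣ Nat.card (centralizer ({θ v1} : Set G)) := by
  have h1 := card_mul_relIndex_of_le h.sylT1.le
  rw [h.cm, S8T.card_T1] at h1
  rw [← h1]
  exact fun e => h.sylT1.not_dvd (Nat.dvd_of_mul_dvd_mul_left (by norm_num : 0 < 32) e)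

theorem bj : ¬ IsConj (θ v1) (θ (w1 * v1)) := fun e => h.n64 (card_cent_conj e ▸ h.d64)

theorem clsb {r : T0} (hr : IsConj (θ v1) (θ r)) : r ≠ 1 ∧ (r ∈ V ∨ r ∈ W) := by
  have e1 : θ v1 * θ v1 = 1 := by rw [h.e1, ← map_mul, k_rel.2.2.2.2.2.2.2.1, map_one]
  have m1 := h.EN (t_m.2.2.2.2.2.2.2.2.2.1 _ t_m.2.2.2.2.1)
  refine ⟨by rintro rfl; exact t_m.1 (h.inj (by simpa using hr)), ?_⟩
  obtain ⟨g, hg⟩ := isConj_iff.mp hr
  rcases t_cl.1 r (h.inj (by rw [map_mul, ← hg, T3.conj_sq e1, map_one])) with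
    e | ⟨l, e⟩ | ⟨l, e | e⟩
  · rcases t_E.1 r e with e | e | ⟨p, hp, p1, q, hq, q1, rfl⟩
    · exact Or.inl e
    · exact Or.inr e
    exfalso
    obtain ⟨-, -, -, -, -, -, -, -, -, -, -, -, u13, u14, u15, u16, -, u18, -⟩ := k_u
    have k : ∀ {c}, c = ta ∨ c = u1 ∨ c = ta * u1 → ∃ l ∈ L, l * c * l⁻¹ = ta := fun {c} hc => by
      have hc' : c ∈ V1 ∧ c ≠ 1 := by
        obtain ⟨-, -, -, -, -, -, -, u8, -, -, -, -, -, -, -, -, -, -, u19, u20, -⟩ := k_u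
        rcases hc with rfl | rfl | rfl
        · exact ⟨u20, u13⟩
        · exact ⟨u19, u14⟩
        · exact ⟨mul_mem u20 u19, fun e => u15 (by
            rw [← inv_eq_of_mul_eq_one_right e, inv_eq_of_mul_eq_one_right u8])⟩
      exact ((k_L c (k_V1 c hc'.1).1).2.1 (k_V1 c hc'.1).2.2.2.1).resolve_left hc'.2
    obtain ⟨c, hc, ec⟩ : ∃ c, (c = ta ∨ c = u1 ∨ c = ta * u1) ∧ θ p = ψ c := by
      rcases t_E.2.2.1 p hp with rfl | rfl | rfl | rfl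
      · exact absurd rfl p1
      · exact ⟨_, Or.inl rfl, h.e3⟩
      · exact ⟨_, Or.inr (Or.inl rfl), h.e4⟩
      · exact ⟨_, Or.inr (Or.inr rfl), by rw [map_mul, map_mul, h.e3, h.e4]⟩
    obtain ⟨d, hd, ed⟩ : ∃ d, (d = ta ∨ d = u1 ∨ d = ta * u1) ∧ θ q = cj ψ σ d := by
      rcases t_E.2.1 q hq with rfl | rfl | rfl | rfl
      · exact absurd rfl q1
      · exact ⟨_, Or.inl rfl, h.e1.trans h.sig.us.symm⟩
      · exact ⟨_, Or.inr (Or.inl rfl), h.e2⟩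
      · exact ⟨_, Or.inr (Or.inr rfl), by
          rw [map_mul, map_mul, h.e1, h.e2, cj_apply ψ σ ta, h.sig.us]⟩
    obtain ⟨l, hl, el⟩ := k hc
    obtain ⟨m, hm, em⟩ := k hd
    have cL : c ∈ L := by
      have := mul_mem (mul_mem (inv_mem hl) (el ▸ u18)) hl
      simpa [mul_assoc] using this
    have dL : d ∈ L := by
      have := mul_mem (mul_mem (inv_mem hm) (em ▸ u18)) hm
      simpa [mul_assoc] using this
    refine h.bj (hr.trans (isConj_iff.mpr ⟨ψ l * cj ψ σ m, ?_⟩))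
    rw [map_mul, ec, ed, h.ej, mul_inv_rev, ← map_inv, ← map_inv,
      ← h.comm _ (inv_mem hl) _ (inv_mem hm), h.mul_eq hm cL, h.mul_eq (mul_mem hm dL) (inv_mem hl),
      el, em]
  · exact (h.aN m1 e1 (e ▸ (hr.trans (θ.map_isConj (isConj_mk l r))).symm)).elim
  · exact (h.sN (Or.inl rfl) m1 e1 (e ▸ (hr.trans (θ.map_isConj (isConj_mk l r))).symm)).elim
  · exact (h.sN (Or.inr rfl) m1 e1 (e ▸ (hr.trans (θ.map_isConj (isConj_mk l r))).symm)).elim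

end Cfg

end Cfsg.Agent.H1.S8K
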