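import Cfsg.Agent.H1.S8B2
import Cfsg.Agent.H7.Components

/-!
# Three-local recognition of `S_8`: identification of the exceptional group
-/

set_option autoImplicit false

namespace Cfsg.Agent.H1.S8K

open Subgroup Cfsg.Agent.H9 Cfsg.Agent.H1.T3 Cfsg.Agent.H1.PC Cfsg.Agent.L0.SC3 Equiv
open Cfsg.Agent.H1.A8 (T0 gT0 card_T0)
open Cfsg.Agent.H1.S8T (v1 v2 w1 w2 x sg E V W T1 Es Ra Rb R16 R8 F8 t_cl t_E t_key t_c t_m)
open scoped Pointwise

variable {G : Type*} [Group G] [Finite G]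

theorem ar6 : ∀ k n : ℕ, 5 ∣ n → n ≠ 2 ^ k * 1 * 3 ∧ n ≠ 2 ^ k * 1 * 6 ∧ n ≠ 4 * 168 := by
  intro k n h
  have h1 : ¬ 5 ∣ 2 ^ k := fun e => absurd ((Nat.prime_five.dvd_of_dvd_pow e)) (by norm_num)
  refine ⟨?_, ?_, ?_⟩ <;> rintro rfl <;> omega

theorem ar7 : ∀ k n : ℕ, ¬ 32 ∣ n → n = 2 ^ k * 60 → n ≤ 240 := by
  rintro k n h rfl
  rcases lt_or_ge k 3 with hk | hk
  · interval_cases k <;> norm_num
  · obtain ⟨j, rfl⟩ := Nat.exists_eq_add_of_le hk
    exact absurd ⟨2 ^ j * 15, by ring⟩ h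

theorem ar8 : ∀ a b n : ℕ, 64 * a = n → 32 * b = n → ¬ 2 ∣ a → b % 4 = 2 := by omega
theorem ar9 : ∀ a b m n : ℕ, 64 * a = n → m * 2 = n → 16 * b = m → ¬ 2 ∣ a → b % 4 = 2 := by omega

namespace Cfg

variable {ψ : K0 →* G} {σ : G} {θ : T0 →* G} {N : Subgroup G} (h : Cfg ψ σ θ N)
include h

omit [Finite G] in
theorem cw {g : G} (e1 : g * ψ w = ψ w * g) (e2 : g * θ v1 = θ v1 * g) :
    ∃ k, cj ψ σ k = g ∧ k * z = z * k ∧ k * ta = ta * k := by
  have e3 := conj_comm (g := σ) e1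
  have e4 := conj_comm (g := σ) e2
  rw [h.sig.wz] at e3
  rw [h.e1, h.sig.su] at e4
  obtain ⟨k, hk⟩ := h.pre.cz e3
  rw [← hk] at e3 e4
  exact ⟨k, by rw [cj_apply, hk, h.sig.cj_cj], h.pre.comm.mp e3, h.pre.comm.mp e4⟩

theorem odd_bot {O : Subgroup G} (hO : O ≤ centralizer ({θ v1} : Set G))
    (hN : L.map ψ ≤ normalizer (O : Set G)) (hodd : Odd (Nat.card O)) : O = ⊥ := by
  obtain ⟨q1, q2, q3, q4, q5, q6, q7⟩ := k_VV
  have w3 : ψ w ^ 3 = 1 := by rw [← map_pow, k_rel.2.2.1, map_one]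
  have wL : w ∈ L := k_u.2.2.2.2.2.2.2.2.2.2.2.2.2.2.2.2.1
  have fpf : ∀ g ∈ O, g * ψ w = ψ w * g → g = 1 := fun g hg e => by
    obtain ⟨k, rfl, k1, k2⟩ := h.cw e (T3.mem_cent.mp (hO hg))
    by_contra g1
    have h2 : ψ w ∈ O := by
      rcases (k_cL k k1 k2).1 (pow_eq_one_of_dvd (n := 16)
        (by rw [← pow_card_eq_one' (x := k), card_K0]) (by
          rw [← orderOf_injective ψ h.pre.inj, ← orderOf_conj_eq σ]
          exact Nat.Coprime.pow_right 4 (Nat.coprime_two_right.mpr (A8.odd_orderOf hodd hg)))) with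
        rfl | rfl | rfl
      · exact absurd (map_one _) g1
      · exact h.sig.zw ▸ hg
      · rw [map_inv, inv_mem_iff] at hg; exact h.sig.zw ▸ hg
    have h3 := mul_mem (conj_mem_of_mem_normalizer (hN (mem_map_of_mem ψ (q1 v q2).1)) h2)
      (inv_mem h2)
    exact h.pre.ne q6 (A8.eq_one_of_odd hodd (by simpa using h3) (by rw [← map_pow, q7, map_one]))
  have hcm := commute_of_fpf (O := O) (K := VV.map ψ) (z := ψ w) Nat.prime_three w3
    (hN (mem_map_of_mem ψ wL)) (mem_normalizer_of_conj_mem (by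
      rintro _ ⟨b, hb, rfl⟩
      exact ⟨_, (q1 b hb).2.1, by simp⟩)) ((map_mono (fun b hb => (q1 b hb).1)).trans hN) hodd
    ((IsPGroup.of_card (n := 2) card_VV).map ψ) fpf (by
      rintro _ ⟨b, hb, rfl⟩ e
      rw [(q1 b hb).2.2 (h.pre.comm.mp e), map_one])
  rw [eq_bot_iff]
  intro g hg
  have k : ∀ l ∈ L, Commute g (ψ (l * v * l⁻¹)) := fun l hl => by
    have := conj_comm (g := ψ l) (hcm _ (conj_mem_of_mem_normalizer
      (hN (mem_map_of_mem ψ (inv_mem hl))) hg) _ (mem_map_of_mem ψ q2))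
    change g * _ = _
    simpa [mul_assoc] using this
  exact fpf g hg (by rw [← q5, map_mul]; exact (k l1 q3).mul_right (k l2 q4))

omit [Finite G] in
theorem Ls : L.map ψ ≤ centralizer ({θ v1} : Set G) := by
  rintro _ ⟨l, hl, rfl⟩
  rw [h.e1]; exact T3.mem_cent.mpr (h.pre.comm.mpr (k_Ls.1 l hl).1)

theorem normV {c : G} (hc : c * θ v1 = θ v1 * c) :
    c * θ v2 * c⁻¹ = θ v2 ∨ c * θ v2 * c⁻¹ = θ v1 * θ v2 := by
  obtain ⟨m1, m2, m3, m4, m5, m6, -, -, -, m10, -, m12, -⟩ := t_m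
  have n : ∀ {a : T0}, a ≠ 1 → θ a ≠ 1 := fun ha e => ha (h.inj (by rw [e, map_one]))
  have s : ∀ {a : T0}, a ∈ V → θ a * θ a = 1 := fun ha => by
    rw [← map_mul, m12 _ (m10 _ ha), map_one]
  have b : ∀ {a : T0}, a ∈ V → a ≠ 1 → IsConj (θ v1) (θ a) := fun {a} ha a1 => by
    obtain ⟨u1', -, -, u4, -, -, -, u8, -, -, -, -, -, u14, u15, u16, -, u18, -⟩ := k_u
    have k : ∀ c ∈ L, c * c = 1 → c ≠ 1 → IsConj (θ v1) (cj ψ σ c) := fun c hc c2 c1 => by
      obtain ⟨m, -, e⟩ := ((k_L c hc).2.1 c2).resolve_left c1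
      rw [h.e1, ← h.sig.us, ← cj_apply, ← e]
      exact ((cj ψ σ).map_isConj (isConj_mk _ _)).symm
    rcases t_E.2.1 a ha with rfl | rfl | rfl | rfl
    · exact absurd rfl a1
    · exact IsConj.refl _
    · exact h.e2 ▸ k u1 u16 u1' u14
    · have := k (ta * u1) (mul_mem u18 u16) (by rw [← mul_assoc]; exact four u8 u1' u4.symm)
        (fun e => u15 (by rw [← inv_eq_of_mul_eq_one_right e, inv_eq_of_mul_eq_one_right u8]))
      rwa [map_mul, ← h.e2, cj_apply, h.sig.us, ← h.e1, ← map_mul] at this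
  refine zstar_key (s m5) (s m6) (T3.mem_cent.mp (mc t_c.1 (mem_map_of_mem θ
    (show v2 ∈ T1 from dec_mem_cl (by simp [S8T.gT10]))))) (n m2) (fun e => m3 (h.inj e))
    h.sylT1 (fun c hc ⟨r, _, e⟩ => ?_) (fun O hO hN => h.odd_bot hO (h.Ls.trans hN)) hc
  have h1 := h.clsb (r := r) ((b m6 m2).trans (e ▸ isConj_mk _ _))
  have h2 := h.clsb (r := v1 * r) ((b (mul_mem m5 m6) m4).trans (by
    rw [map_mul, map_mul, e]
    conv_rhs => rw [← conj_eq_iff.mpr hc, conj_mul]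
    exact isConj_mk _ _))
  rw [← e, ← map_mul, h.inj.eq_iff, h.inj.eq_iff]
  exact (t_key r h1.1 h1.2).1 h2.1 h2.2

theorem centV : centralizer ({θ v1, θ v2} : Set G) ≤ N := by
  obtain ⟨u1', u2, u3, u4, -, -, -, u8, -, -, -, -, -, u14, u15, u16, u17, u18, -⟩ := k_u
  set C := centralizer ({θ v1, θ v2} : Set G)
  have hinj : Function.Injective (cj ψ σ) := (MulAut.conj σ).injective.comp h.pre.inj
  have f1 : θ v1 = cj ψ σ ta := h.e1.trans h.sig.us.symm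
  have hL : L.map ψ ≤ C := by
    rintro _ ⟨l, hl, rfl⟩
    rw [mem_cent2, f1, h.e2]
    exact ⟨h.comm l hl _ u18, h.comm l hl _ u16⟩
  have hZ : V1.map (cj ψ σ) ≤ C := by
    rintro _ ⟨b, hb, rfl⟩
    rw [mem_cent2, f1, h.e2]
    exact ⟨h.pre.ccomm (k_V1 b hb).2.1, h.pre.ccomm (k_V1 b hb).2.2.1⟩
  have hZc : ∀ g ∈ C, ∀ ζ ∈ V1.map (cj ψ σ), g * ζ = ζ * g := by
    rintro g hg _ ⟨b, hb, rfl⟩
    obtain ⟨e1, e2⟩ := mem_cent2.mp hg
    rw [f1] at e1
    rw [h.e2] at e2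
    rcases (k_V1 b hb).2.2.2.2.2.2 with rfl | rfl | rfl | rfl
    · simp
    · exact e1
    · exact e2
    · rw [map_mul]; exact Commute.mul_right e1 e2
  have hC : C ≤ centralizer ({θ v1} : Set G) := fun g hg => T3.mem_cent.mpr (mem_cent2.mp hg).1
  have h32 : ¬ 32 ∣ Nat.card C := fun e => h.n64 (by
    have h1 := card_mul_relIndex_of_le hC
    have h2 : C.relIndex (centralizer ({θ v1} : Set G)) ≠ 1 := fun e => by
      have := (mem_cent2.mp (relIndex_eq_one.mp e (mc t_c.1 (mem_map_of_mem θ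
        t_c.2.2.2.2.2.2.2.1)))).2
      rw [h.e2, h.e5, ← h.sig.aa, ← cj_apply, ← map_mul, ← map_mul, hinj.eq_iff, ← conj_eq_iff,
        k_u.2.2.2.2.2.2.2.2.2.2.2.2.2.2.2.2.2.2.2.2.2.2.2, mul_eq_right] at this
      exact k_u.2.2.2.2.2.2.2.2.2.2.2.2.1 this
    have h3 := h.sylT1
    obtain ⟨P, hP⟩ := exists_isSylowIn 2 C
    obtain ⟨l, hl, hl'⟩ := exists_conj_le h3 hP.isPGroup (hP.le.trans hC)
    exfalso
    have h4 : 32 ∣ Nat.card P := by
      rw [← card_mul_relIndex_of_le hP.le] at e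
      exact (Nat.Coprime.pow_left 5 ((Nat.Prime.coprime_iff_not_dvd Nat.prime_two).mpr
        hP.not_dvd)).dvd_of_dvd_mul_right e
    have h5 := eq_of_le_of_card_ge hl' (by
      rw [h.cm, S8T.card_T1, card_conj_smul]; exact Nat.le_of_dvd Nat.card_pos h4)
    obtain ⟨p, hp, e'⟩ := exists_of_mem_conj_smul (h5.ge (mem_map_of_mem θ t_c.2.2.2.2.2.2.2.1))
    have h6 := conj_comm (g := l) (mem_cent2.mp (hP.le hp)).2
    have h7 : θ x * θ v1 = θ v1 * θ x :=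
      T3.mem_cent.mp (mc t_c.1 (mem_map_of_mem θ t_c.2.2.2.2.2.2.2.1))
    have h8 : θ x * θ v2 = θ v2 * θ x := by
      rw [← e'] at h6
      rcases h.normV (T3.mem_cent.mp hl) with e | e <;> rw [e] at h6
      · exact h6
      · rw [← mul_assoc, h7, mul_assoc, mul_assoc] at h6
        exact mul_left_cancel h6
    rw [h.e2, h.e5, ← h.sig.aa, ← cj_apply, ← map_mul, ← map_mul, hinj.eq_iff, ← conj_eq_iff,
      k_u.2.2.2.2.2.2.2.2.2.2.2.2.2.2.2.2.2.2.2.2.2.2.2, mul_eq_right] at h8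
    exact k_u.2.2.2.2.2.2.2.2.2.2.2.2.1 h8)
  have c4 : Nat.card (V1.map (cj ψ σ)) = 4 := by rw [card_map_of_injective hinj, card_V1]
  have c60 : Nat.card (L.map ψ) = 60 := by rw [card_map_of_injective h.pre.inj, card_L]
  have h5 : 5 ∣ Nat.card C := Dvd.dvd.trans (by rw [c60]; norm_num) (card_dvd_of_le hL)
  have hle : Nat.card C ≤ 240 := by
    rcases sc3_mod hZ hZc ((IsPGroup.of_card (n := 2) card_V1).map _) (hL (mem_map_of_mem ψ u17))
      (by rw [← map_pow, k_rel.2.2.1, map_one]) (h.pre.ne k_rel.2.2.2.1) (fun g hg e => by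
        obtain ⟨k, rfl, k1, k2⟩ := h.cw e (mem_cent2.mp hg).1
        have k3 := (mem_cent2.mp hg).2
        rw [h.e2, ← map_mul, ← map_mul, hinj.eq_iff] at k3
        rw [← h.sig.zw, ← cj_apply, ← map_inv, ← map_mul, ← map_mul]
        exact ((k_cL k k1 k2).2 k3).1.imp (mem_map_of_mem _)
          (Or.imp (mem_map_of_mem _) (mem_map_of_mem _))) with
      ⟨Q, O, -, -, -, hQ, hO, hN, hco, -, hcard⟩ | ⟨Q, -, hQL, -, hQ, -, -, π, hπ, hk⟩ | ⟨π, hπ, hk⟩
    · obtain ⟨k, hk⟩ := hQ.exists_card_eq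
      rw [h.odd_bot (hO.trans hC) (hL.trans hN) (Nat.coprime_two_right.mp
        (Nat.Coprime.coprime_dvd_right (by norm_num) hco)), card_bot, hk] at hcard
      exact (hcard.elim (ar6 k _ h5).1 (ar6 k _ h5).2.1).elim
    · obtain ⟨k, hk'⟩ := hQ.exists_card_eq
      exact ar7 k _ h32 (by rw [card_of_surj π hπ hQL hk, hk', card_alt5])
    · exact ((ar6 0 _ h5).2.2 (by rw [card_of_surj π hπ hZ hk, c4, card_psl27])).elim
  have h6 := H7.card_sup_of_inf_eq_bot (A := V1.map (cj ψ σ)) (B := L.map ψ)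
    (hL.trans (le_normalizer_of_cent hZc)) (by
      rw [eq_bot_iff]
      rintro _ ⟨⟨b, hb, rfl⟩, l, hl, e⟩
      rw [mem_bot, (h.eq_iff hl (one_mem _) (one_mem _) (k_V1 b hb).1 (by simpa using e)).2.symm,
        map_one])
  rw [← eq_of_le_of_card_ge (sup_le hZ hL) (by rw [h6, c4, c60]; exact hle)]
  refine sup_le ?_ ?_
  · rintro _ ⟨b, hb, rfl⟩
    exact h.m2 (k_V1 b hb).1
  · rintro _ ⟨b, hb, rfl⟩
    exact h.m1 hb

theorem cent_s : centralizer ({θ v1} : Set G) ≤ N ⊔ θ.range := by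
  intro c hc
  have hc' := T3.mem_cent.mp hc
  rcases h.normV hc' with e | e
  · exact mem_sup_left (h.centV (mem_cent2.mpr ⟨hc', conj_eq_iff.mp e⟩))
  · have := h.centV (mem_cent2.mpr (⟨T3.mem_cent.mp (mul_mem (mc t_c.1 (mem_map_of_mem θ
      t_c.2.2.2.2.2.2.2.1)) hc), by
      rw [← conj_eq_iff]
      conv_rhs => rw [← t_m.2.2.2.2.2.2.1, map_mul, map_mul, map_mul, map_inv, ← e]
      group⟩ : θ x * c * θ v1 = θ v1 * (θ x * c) ∧ θ x * c * θ v2 = θ v2 * (θ x * c)))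
    simpa using mul_mem (inv_mem (mem_sup_right ⟨x, rfl⟩ : θ x ∈ N ⊔ θ.range)) (mem_sup_left this)

theorem cent_of {u k g : G} (hk : k ∈ N ⊔ θ.range)
    (hu : centralizer ({k * u * k⁻¹} : Set G) ≤ N ⊔ θ.range) (e : g * u = u * g) :
    g ∈ N ⊔ θ.range := by
  simpa [mul_assoc] using mul_mem (mul_mem (inv_mem hk) (hu (T3.mem_cent.mpr (conj_comm e)))) hk

theorem cent_ta : centralizer ({ψ ta} : Set G) ≤ N ⊔ θ.range := fun _ hg =>
  h.cent_of (mem_sup_right ⟨sg, rfl⟩) (by rw [h.e6, h.sig.us, ← h.e1]; exact h.cent_s)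
    (T3.mem_cent.mp hg)

theorem sq_mem {g : G} (hg : g ∈ N ⊔ θ.range) : g * g ∈ N := by
  obtain ⟨n, hn, _, ⟨r, rfl⟩, rfl⟩ := (H7.mem_sup_of_norm h.TN).mp hg
  have := mul_mem (mul_mem hn (conj_mem_of_mem_normalizer (h.TN ⟨r, rfl⟩) hn))
    (h.EN (t_E.2.2.2 r).1)
  convert this using 1
  rw [map_mul]; group

theorem cent_j : centralizer ({θ (w1 * v1)} : Set G) ≤ N ⊔ θ.range := by
  obtain ⟨m1, -, -, -, m5, -, -, m8, m9, m10, m11, m12, -, -, m15, m16⟩ := t_m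
  obtain ⟨-, -, -, -, -, -, -, -, -, -, -, -, -, -, -, u16, -, u18, -⟩ := k_u
  have n : ∀ {a : T0}, a ≠ 1 → θ a ≠ 1 := fun ha e => ha (h.inj (by rw [e, map_one]))
  have s : ∀ {a : T0}, a ∈ E → θ a * θ a = 1 := fun ha => by rw [← map_mul, m12 _ ha, map_one]
  have wW : w1 ∈ W := dec_mem_cl (by simp [S8T.gW0])
  have hT := mc (θ := θ) (K := ⊤) (fun r _ => (t_E.2.2.2 r).2.1)
  intro c hc
  rcases zstar_key (s (mul_mem (m11 _ wW) (m10 _ m5))) (s (m10 _ m5))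
    (T3.mem_cent.mp (hT (mem_map_of_mem θ (mem_top v1)))) (n m1) (fun e => m15 (h.inj e))
    (h.sylT.of_le hT le_top) (fun c hc ⟨r, _, e⟩ => by
      have h1 := h.clsb (r := r) (e ▸ isConj_mk _ _)
      have h2 := h.clsb (r := w1 * v1 * r) (by
        rw [map_mul, e]
        conv_rhs => rw [← conj_eq_iff.mpr hc, conj_mul, ← map_mul]
        refine IsConj.trans ?_ (isConj_mk _ _)
        conv_lhs => rw [← m9]
        exact (θ.map_isConj (isConj_mk _ _)).symm)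
      rw [← e, ← map_mul, h.inj.eq_iff, h.inj.eq_iff]
      exact (t_key r h1.1 h1.2).2 h2.2) (fun O hO hN hodd => by
      have h1 : O ≤ N ⊔ θ.range := le_of_cent1 (A := V1.map ψ)
        ((IsPGroup.of_card (n := 2) card_V1).map ψ) (by
          rintro _ ⟨a, ha, rfl⟩ _ ⟨b, hb, rfl⟩
          exact h.pre.comm.mpr ((k_V1 a ha).2.2.2.2.2.1 b hb))
        (A8.not_isCyclic_of_klein (by rw [card_map_of_injective h.pre.inj, card_V1]) (by
          rintro _ ⟨b, hb, rfl⟩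
          rw [← map_mul, (k_V1 b hb).2.2.2.1, map_one])) (le_trans (by
          rintro _ ⟨b, hb, rfl⟩
          rw [T3.mem_cent, h.ej]
          exact Commute.mul_right (h.pre.comm.mpr (k_V1 b hb).2.1) (h.comm b (k_V1 b hb).1 _ u18))
          hN) (Nat.coprime_two_right.mpr hodd) (by
          rintro _ ⟨b, hb, rfl⟩ b1 g _ e
          obtain ⟨m, hm, e'⟩ := ((k_L b (k_V1 b hb).1).2.1 (k_V1 b hb).2.2.2.1).resolve_left
            (fun e => b1 (by rw [e, map_one]))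
          exact h.cent_of (mem_sup_left (h.m1 hm)) (by
            rw [← map_inv, ← map_mul, ← map_mul, e']; exact h.cent_ta) e)
      rw [eq_bot_iff]
      intro g hg
      have ho := A8.odd_orderOf hodd hg
      obtain ⟨p, hp, q, hq, rfl⟩ := (h.mem g).mp (mem_of_odd ho (h.sq_mem (h1 hg)))
      have h2 := T3.mem_cent.mp (hO hg)
      rw [h.ej, h.mul_eq hq u18, h.mul_eq u18 hp] at h2
      obtain ⟨h3, h4⟩ := h.eq_iff (mul_mem hp u18) (mul_mem hq u18) (mul_mem u18 hp)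
        (mul_mem u18 hq) h2
      exact eq_one_of_odd' ho (by
        rw [h.mul_eq hq hp, (k_L p hp).2.2.1 h3, (k_L q hq).2.2.1 h4]; simp))
    (T3.mem_cent.mp hc) with e | e
  · exact h.cent_s (T3.mem_cent.mpr (conj_eq_iff.mp e))
  · have := h.cent_s (x := θ sg * c) (T3.mem_cent.mpr (by
      rw [← conj_eq_iff]
      conv_rhs => rw [← m9, map_mul, map_mul, map_mul, map_inv, ← e]
      group))
    simpa using mul_mem (inv_mem (mem_sup_right ⟨sg, rfl⟩ : θ sg ∈ N ⊔ θ.range)) this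

omit [Finite G] in
theorem N_le {A B : Subgroup G} (hA : Idx2 A B) (hN : N ≤ B) : N ≤ A := by
  have k : ∀ (f : K0 →* G), (∀ p ∈ L, f p ∈ N) → ∀ p ∈ L, f p ∈ A := fun f hf p hp => by
    obtain ⟨l, hl, e1, e2⟩ := (k_L p hp).2.2.2.2
    have := mul_mem (inv_mem (hA.cube (hN (hf l hl)) (by rw [← map_pow, e1, map_one])))
      (hA.cube (hN (hf _ (mul_mem hl hp))) (by rw [← map_pow, e2, map_one]))
    simpa using this
  intro g hg
  obtain ⟨p, hp, q, hq, rfl⟩ := (h.mem g).mp hg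
  exact mul_mem (k ψ (fun _ => h.m1) p hp) (k _ (fun _ => h.m2) q hq)

theorem top : N ⊔ θ.range = ⊤ ∧ N.index = 4 := by
  obtain ⟨m1, -, -, -, m5, -, -, -, -, m10, m11, m12, m13, m14, -, m16⟩ := t_m
  have n : ∀ {a : T0}, a ≠ 1 → θ a ≠ 1 := fun ha e => ha (h.inj (by rw [e, map_one]))
  have s : ∀ {a : T0}, a ∈ E → θ a * θ a = 1 := fun ha => by rw [← map_mul, m12 _ ha, map_one]
  have wW : w1 ∈ W := dec_mem_cl (by simp [S8T.gW0])
  have a2 : θ x * θ x = 1 := by rw [h.e5, ← map_mul, k_rel2.2.2.2.2.2.2.2.2.2.2.2.1, map_one]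
  have h1 := card_mul_relIndex_of_le h.sylT.le
  rw [h.cm, card_top, card_T0] at h1
  obtain ⟨G1, hG1, ha⟩ := thompson_transfer (L := ⊤) (A := Es.map θ) (u := θ x) (by
      have h2 := card_mul_relIndex_of_le (le_top : Es.map θ ≤ ⊤)
      rw [h.cm, S8T.card_Es] at h2
      exact ar8 _ _ _ h1 h2 h.sylT.not_dvd) (mem_top _) a2 (by
      rintro g - ⟨r, hr, e⟩
      have hc : IsConj (θ x) (θ r) := e ▸ isConj_mk _ _
      rcases t_c.2.2.2.2.2.2.1 r hr (h.inj (by rw [map_mul, e, T3.conj_sq a2, map_one])) with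
        e' | ⟨l, e'⟩
      · exact h.aN (h.EN e') (s e') hc
      · refine (h.pre.not_conj_sig h.sig).1 ?_
        rw [← h.e5, ← h.e6, ← e']
        exact hc.trans (θ.map_isConj (isConj_mk _ _)))
  have N1 := h.N_le hG1 le_top
  obtain ⟨t, ht, ht1⟩ : ∃ t, (t = sg ∨ t = sg * x) ∧ θ t ∈ G1 :=
    (hG1.mem_or (mem_top _) ha (mem_top (θ sg))).elim (fun e => ⟨_, Or.inl rfl, e⟩)
      (fun e => ⟨_, Or.inr rfl, by rwa [map_mul]⟩)
  have t2 : θ t * θ t = 1 := by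
    rcases ht with rfl | rfl
    · rw [h.e6, h.sig.sq]
    · rw [← map_mul, m14, map_one]
  have EG : E.map θ ≤ N := by
    rintro _ ⟨r, hr, rfl⟩
    exact h.EN hr
  obtain ⟨G0, hG0, ht0⟩ := thompson_transfer (L := G1) (A := E.map θ) (u := θ t) (by
      have h2 := card_mul_relIndex_of_le (EG.trans N1)
      rw [h.cm, S8T.card_E] at h2
      exact ar9 _ _ _ _ h1 (hG1.card (mem_top _) ha) h2 h.sylT.not_dvd) ht1 t2
      (fun g _ hg => h.sN ht (EG hg) (T3.conj_sq t2) (isConj_mk _ _))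
  have N0 := h.N_le hG0 N1
  have hH : ∀ g ∈ G0, g ∈ N ⊔ θ.range → g ∈ N := fun g hg hg' => by
    obtain ⟨n, hn, _, ⟨r, rfl⟩, rfl⟩ := (H7.mem_sup_of_norm h.TN).mp hg'
    refine mul_mem hn (h.EN ?_)
    have h3 : θ r ∈ G0 := by simpa using mul_mem (inv_mem (N0 hn)) hg
    have k : ∀ {u}, r * u ∈ E → θ u ∈ G0 := fun e => by
      simpa using mul_mem (inv_mem h3) (N0 (h.EN e))
    have k1 : θ (t * x) ∉ G0 := fun e => ha (by simpa using mul_mem (inv_mem ht1) (hG0.le e))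
    rcases (t_E.2.2.2 r).2.2 with e | e | e | e
    · exact e
    · exact (ha (hG0.le (k e))).elim
    · rcases ht with rfl | rfl
      · exact (ht0 (k e)).elim
      · exact (k1 (by rw [m13]; exact k e)).elim
    · rcases ht with rfl | rfl
      · exact (k1 (k e)).elim
      · exact (ht0 (k e)).elim
  have jE := mul_mem (m11 _ wW) (m10 _ m5)
  have hG : G0 ≤ N := le_of_two_classes N0 (h.EN (m10 _ m5)) (s (m10 _ m5)) (n m1) (h.EN jE) (s jE)
    (n m16) (fun e => h.bj e.symm) (fun u hu h2 h1 g hg e => hH g hg (by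
      obtain ⟨k, hk, e' | e' | e'⟩ := h.clsN hu h2 h1
      · exact h.cent_of (mem_sup_left hk) (e' ▸ h.cent_ta) e
      · exact h.cent_of (mem_sup_left hk) (e' ▸ h.cent_s) e
      · exact h.cent_of (mem_sup_left hk) (e' ▸ h.cent_j) e)) (fun g hg => by
      obtain ⟨k, hk, e' | e' | e'⟩ := h.clsN hg (T3.conj_sq (s jE)) (conj_ne_one (n m16))
      · refine (h.bj (IsConj.symm (((isConj_mk g _).trans (isConj_mk k _)).trans ?_))).elim
        rw [e', h.e1, ← h.sig.us]; exact isConj_mk _ _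
      · exact (h.bj (e' ▸ ((isConj_mk g _).trans (isConj_mk k _)).symm)).elim
      · refine ⟨k⁻¹, inv_mem hk, ?_⟩
        conv_rhs => rw [← e']
        group)
  obtain rfl := le_antisymm hG N0
  refine ⟨eq_top_iff.mpr (fun g _ => ?_), ?_⟩
  · have k : ∀ g ∈ G1, g ∈ G0 ⊔ θ.range := fun g hg => by
      rcases hG0.mem_or ht1 ht0 hg with e | e
      · exact mem_sup_left e
      · simpa using mul_mem (mem_sup_left e : _ ∈ G0 ⊔ θ.range) (inv_mem (mem_sup_right ⟨t, rfl⟩))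
    rcases hG1.mem_or (mem_top _) ha (mem_top g) with e | e
    · exact k g e
    · simpa using mul_mem (k _ e) (inv_mem (mem_sup_right ⟨x, rfl⟩))
  · rw [← relIndex_mul_index hG0.le, hG0.relIndex ht1 ht0, ← relIndex_top_right,
      hG1.relIndex (mem_top _) ha]

end Cfg

end Cfsg.Agent.H1.S8K
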