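import Cfsg.Agent.H1.S6Lift
import Cfsg.Agent.H1.S8Data

/-!
# Three-local recognition of `S_8`: the normalizer of a Sylow `3`-subgroup
-/

set_option autoImplicit false

namespace Cfsg.Agent.H1.S8K

open Subgroup Cfsg.Agent.H9 Cfsg.Agent.H1.T3 Cfsg.Agent.H1.PC Cfsg.Agent.L0.SC3
open scoped Pointwise

variable {G : Type*} [Group G] [Finite G]

/-- The three-local hypotheses. -/
structure Pre (ψ : K0 →* G) : Prop where
  inj : Function.Injective ψ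
  nz : ∀ g, g * ψ z * g⁻¹ = ψ z ∨ g * ψ z * g⁻¹ = (ψ z)⁻¹ → ∃ k, ψ k = g
  syl : ¬ 27 ∣ Nat.card G
  nD : Nat.card (normalizer ((D.map ψ : Subgroup G) : Set G)) = 144
  cy : ∃ d ∈ D, centralizer ({ψ d} : Set G) ≤ normalizer ((D.map ψ : Subgroup G) : Set G) ∧
    ∀ g, g * ψ d = ψ d * g → g * g ∈ D.map ψ

/-- An element interchanging the two three-cycles. -/
structure Sig (ψ : K0 →* G) (σ : G) (u : K0) : Prop where
  sq : σ * σ = 1
  zw : σ * ψ z * σ⁻¹ = ψ w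
  wz : σ * ψ w * σ⁻¹ = ψ z
  aa : σ * ψ a * σ⁻¹ = ψ a
  su : σ * ψ s0 * σ⁻¹ = ψ u
  us : σ * ψ u * σ⁻¹ = ψ s0
  mem : σ ∈ normalizer ((D.map ψ : Subgroup G) : Set G)

namespace Pre

variable {ψ : K0 →* G} (h : Pre ψ)
include h

omit [Finite G] in
theorem ne {a : K0} (ha : a ≠ 1) : ψ a ≠ 1 := fun e => ha (h.inj (by rw [e, map_one]))

omit [Finite G] in
theorem cz {g : G} (e : g * ψ z = ψ z * g) : ∃ k, ψ k = g := h.nz g (Or.inl (conj_eq_iff.mpr e))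

omit [Finite G] in
theorem comm {a b : K0} : ψ a * ψ b = ψ b * ψ a ↔ a * b = b * a := by
  rw [← map_mul, ← map_mul, h.inj.eq_iff]

theorem BN : B.map ψ ≤ normalizer ((D.map ψ : Subgroup G) : Set G) := by
  rintro _ ⟨b, hb, rfl⟩
  refine mem_normalizer_of_conj_mem ?_
  rintro _ ⟨d, hd, rfl⟩
  exact ⟨_, (k_BD b hb).2.2 d hd, by simp⟩

omit [Finite G] in
theorem memB {k : K0} (hk : ψ k ∈ normalizer ((D.map ψ : Subgroup G) : Set G)) : k ∈ B := by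
  have key : ∀ d ∈ D, k * d * k⁻¹ ∈ D := fun d hd => by
    obtain ⟨e, he, e'⟩ := conj_mem_of_mem_normalizer hk (mem_map_of_mem ψ hd)
    rwa [← h.inj (a₂ := k * d * k⁻¹) (by simpa using e')]
  exact (k_B k).mpr ⟨key _ k_rel2.1, key _ k_rel2.2.1⟩

theorem idx : Idx2 (B.map ψ) (normalizer ((D.map ψ : Subgroup G) : Set G)) :=
  ⟨h.BN, fun _ ha _ hb => mul_mem_iff_of_card h.BN
    (by rw [h.nD, card_map_of_injective h.inj, card_B]) ha hb⟩

theorem no5 {g : G} (hg : g * ψ a5 * g⁻¹ ∈ normalizer ((D.map ψ : Subgroup G) : Set G)) :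
    False := by
  have : Fact (Nat.Prime 5) := ⟨by norm_num⟩
  have h1 := orderOf_dvd_natCard _ hg
  rw [h.nD, orderOf_conj_eq, orderOf_eq_prime (p := 5)
    (by rw [← map_pow, k_rel2.2.2.2.2.2.2.2.2.2.1, map_one])
    (h.ne k_rel2.2.2.2.2.2.2.2.2.2.2.1)] at h1
  omega

theorem cent_y' {σ : G} (hσ : σ * ψ z * σ⁻¹ = ψ w) :
    centralizer ({ψ y} : Set G) ≤ normalizer ((D.map ψ : Subgroup G) : Set G) ∧
      ∀ g, g * ψ y = ψ y * g → g * g ∈ D.map ψ := by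
  obtain ⟨d, hd, hc, hs⟩ := h.cy
  have e5 : ψ a5 * ψ z = ψ z * ψ a5 := h.comm.mpr k_rel2.2.2.2.2.2.2.2.2.1
  rcases (k_D d hd).2.2 with rfl | (rfl | rfl) | (rfl | rfl) | ⟨u, hu, e⟩
  · exact (h.no5 (g := 1) (hc (by simp [T3.mem_cent]))).elim
  · exact (h.no5 (g := 1) (hc (by simpa [T3.mem_cent] using e5))).elim
  · exact (h.no5 (g := 1) (hc (by
      rw [T3.mem_cent, map_inv, one_mul, inv_one, mul_one]
      exact (Commute.inv_right e5).eq))).elim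
  · exact (h.no5 (g := σ) (hc (by rw [T3.mem_cent, ← hσ]; exact conj_comm e5))).elim
  · exact (h.no5 (g := σ) (hc (by
      rw [T3.mem_cent, map_inv, ← hσ]
      exact (Commute.inv_right (conj_comm e5)).eq))).elim
  have h2 := h.BN (mem_map_of_mem ψ hu)
  have key : ∀ g, g * ψ y = ψ y * g →
      (ψ u)⁻¹ * g * (ψ u)⁻¹⁻¹ * ψ d = ψ d * ((ψ u)⁻¹ * g * (ψ u)⁻¹⁻¹) := fun g hg => by
    have h1 := conj_comm (g := (ψ u)⁻¹) hg
    rwa [← e, show (ψ u)⁻¹ * ψ (u * d * u⁻¹) * (ψ u)⁻¹⁻¹ = ψ d by simp [mul_assoc]] at h1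
  refine ⟨fun g hg => ?_, fun g hg => ?_⟩
  · simpa [mul_assoc] using mul_mem (mul_mem h2
      (hc (T3.mem_cent.mpr (key g (T3.mem_cent.mp hg))))) (inv_mem h2)
  · simpa [mul_assoc] using conj_mem_of_mem_normalizer h2 (hs _ (key g hg))

theorem exists_sig : ∃ σ u, (u = t ∨ u = ta) ∧ Sig ψ σ u := by
  obtain ⟨r1, r2, r3, r4, r5, r6, r7, r8, r9, r10, r11, r12, r13, r14⟩ := k_rel
  obtain ⟨m1, m2, m3, m4, m5, m6, -, -, -, -, -, q1, q2, q3, q4, q5, q6, q7⟩ := k_rel2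
  obtain ⟨s, hs, hsB⟩ : ∃ s ∈ normalizer ((D.map ψ : Subgroup G) : Set G), s ∉ B.map ψ := by
    by_contra hh
    push Not at hh
    have := card_le_of_le (show normalizer ((D.map ψ : Subgroup G) : Set G) ≤ _ from hh)
    rw [h.nD, card_map_of_injective h.inj, card_B] at this
    omega
  have hm : ∀ a ∈ B, ∃ b ∈ B, ψ b = s * ψ a * s⁻¹ := fun a ha =>
    (h.idx.conj (h.BN (mem_map_of_mem ψ ha)) hs).mpr (mem_map_of_mem ψ ha)
  obtain ⟨p, hp, ea⟩ := hm z m3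
  obtain ⟨q, hq, eb⟩ := hm w m4
  obtain ⟨c, hc, ec⟩ := hm s0 m5
  obtain ⟨d, hd, ed⟩ := hm t m6
  have hz : ∀ k, ψ k ≠ s := by
    rintro k rfl
    exact hsB (mem_map_of_mem ψ (h.memB hs))
  have tr : ∀ {a b a' b' : K0}, ψ a' = s * ψ a * s⁻¹ → ψ b' = s * ψ b * s⁻¹ →
      (a' = b' ↔ a = b) := fun ea eb => by
    rw [← h.inj.eq_iff, ea, eb, mul_left_inj, mul_right_inj, h.inj.eq_iff]
  have mu : ∀ {a b a' b' : K0}, ψ a' = s * ψ a * s⁻¹ → ψ b' = s * ψ b * s⁻¹ →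
      ψ (a' * b') = s * ψ (a * b) * s⁻¹ := fun ea eb => by
    rw [map_mul, map_mul, ea, eb]; group
  have iv : ∀ {a a' : K0}, ψ a' = s * ψ a * s⁻¹ → ψ a'⁻¹ = s * ψ a⁻¹ * s⁻¹ := fun ea => by
    rw [map_inv, map_inv, ea]; group
  have on : ψ 1 = s * ψ 1 * s⁻¹ := by simp
  have cu : ∀ {a a' : K0}, ψ a' = s * ψ a * s⁻¹ → ψ (a' ^ 3) = s * ψ (a ^ 3) * s⁻¹ := fun ea => by
    rw [map_pow, map_pow, ea, conj_pow]
  obtain ⟨k, hk, e1, e2, e3, e4⟩ := k_sig p hp ((tr (cu ea) on).mpr r1) (mt (tr ea on).mp r2)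
    (by
      rintro rfl
      obtain ⟨k, hk⟩ := h.nz s (Or.inl ea.symm)
      exact hz k hk)
    (by
      rintro rfl
      obtain ⟨k, hk⟩ := h.nz s (Or.inr (by rw [← ea, map_inv]))
      exact hz k hk)
    q hq ((tr (cu eb) on).mpr r3) (mt (tr eb on).mp r4) (mt (tr eb ea).mp r6)
    (mt (tr eb (iv ea)).mp r7) c hc ((tr (mu ec ec) on).mpr r8)
    ((tr (mu ec eb) (mu eb ec)).mpr r9) ((tr (mu (mu ec ea) (iv ec)) (iv ea)).mpr r10)
    d hd ((tr (mu ed ed) on).mpr r11) ((tr (mu ed ea) (mu ea ed)).mpr r12)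
    ((tr (mu (mu ed eb) (iv ed)) (iv eb)).mpr r13)
  have f : ∀ {a a' : K0}, ψ a' = s * ψ a * s⁻¹ →
      ψ k * s * ψ a * (ψ k * s)⁻¹ = ψ (k * a' * k⁻¹) := fun ea => by
    rw [map_mul, map_mul, map_inv, ea]; group
  have f1 := f ea
  have f2 := f eb
  have f3 := f ec
  have f4 := f ed
  have f5 := mul_mem (h.BN (mem_map_of_mem ψ hk)) hs
  rw [e1] at f1
  rw [e2] at f2
  generalize ψ k * s = σ at f1 f2 f3 f4 f5
  generalize k * c * k⁻¹ = u at f3 e3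
  generalize k * d * k⁻¹ = u' at f4 e4
  have f6 : σ * ψ a * σ⁻¹ = ψ a := by
    have g1 := conj_comm (g := σ) (h.comm.mpr q3)
    have g2 := conj_comm (g := σ) (h.comm.mpr q4)
    rw [f1] at g1
    rw [f2] at g2
    obtain ⟨l, hl⟩ := h.cz g2
    rw [← hl] at g1 g2
    rcases ((k_cD l (h.comm.mp g2)).2 (h.comm.mp g1)).2 (h.inj (by
      rw [map_mul, hl, T3.conj_sq (by rw [← map_mul, q1, map_one]), map_one])) with rfl | rfl
    · exact absurd (by rw [← hl, map_one]) (conj_ne_one (g := σ) (h.ne q2))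
    · exact hl.symm
  have mu' : ∀ {a b a' b' : K0}, σ * ψ a * σ⁻¹ = ψ a' → σ * ψ b * σ⁻¹ = ψ b' →
      σ * ψ (a * b) * σ⁻¹ = ψ (a' * b') := fun ea eb => by
    rw [map_mul, map_mul, ← ea, ← eb]; group
  obtain ⟨l, hl, el⟩ := (h.cent_y' f1).2 σ (by
    rw [← conj_eq_iff, r14, mu' f1 f2, r5])
  have g : ∀ {a b c : K0}, σ * ψ a * σ⁻¹ = ψ b → σ * ψ b * σ⁻¹ = ψ c → l * a * l⁻¹ = c :=
    fun e1 e2 => h.inj (by rw [map_mul, map_mul, map_inv, el, ← e2, ← e1]; group)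
  have f7 := mu' f4 f6
  have f8 := mu' f3 f6
  rw [← q5] at f7
  have hl1 := k_sq l hl (by
    rcases e3 with rfl | rfl <;> rcases e4 with rfl | rfl
    · exact Or.inl (g f3 f4)
    · exact Or.inr (g f3 f4)
    · exact Or.inr (g f3 f7)
    · exact Or.inl ((g f3 f7).trans q7)) (by
    rcases e3 with rfl | rfl <;> rcases e4 with rfl | rfl
    · exact Or.inl (g f4 f3)
    · exact Or.inr ((g f4 f8).trans q5.symm)
    · exact Or.inr (g f4 f3)
    · exact Or.inl ((g f4 f8).trans q6))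
  have hsq : σ * σ = 1 := by rw [← el, hl1, map_one]
  refine ⟨σ, u, e3, hsq, f1, f2, f6, f3, ?_, f5⟩
  rw [← f3, inv_eq_of_mul_eq_one_right hsq]
  calc _ = σ * σ * ψ s0 * (σ * σ) := by group
    _ = _ := by rw [hsq]; group

theorem sylD : IsSylowIn 3 (D.map ψ) ⊤ :=
  have : Fact (Nat.Prime 3) := ⟨Nat.prime_three⟩
  isSylowIn_of_card (k := 2) le_top (by rw [card_map_of_injective h.inj, card_D]; rfl)
    (by rw [card_top]; exact h.syl)

omit [Finite G] h in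
theorem abD : ∀ a ∈ D.map ψ, ∀ b ∈ D.map ψ, a * b = b * a := by
  rintro _ ⟨a, ha, rfl⟩ _ ⟨b, hb, rfl⟩
  rw [← map_mul, (k_D a ha).1 b hb, map_mul]

variable {σ : G} {u : K0} (hσ : Sig ψ σ u)
include hσ

omit [Finite G] in
theorem sigB : σ ∉ B.map ψ := by
  rintro ⟨k, -, rfl⟩
  exact k_nz k (h.inj (by simpa using hσ.zw))

theorem memN {g : G} (hg : g ∈ normalizer ((D.map ψ : Subgroup G) : Set G)) :
    g ∈ B.map ψ ∨ g * σ ∈ B.map ψ := h.idx.mem_or hσ.mem (h.sigB hσ) hg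

theorem NC : normalizer ((D.map ψ : Subgroup G) : Set G) ≤ centralizer ({ψ a} : Set G) := by
  have hB : B.map ψ ≤ centralizer ({ψ a} : Set G) := by
    rintro _ ⟨b, hb, rfl⟩
    exact T3.mem_cent.mpr (h.comm.mpr (k_BD b hb).1)
  intro g hg
  rcases h.memN hσ hg with e | e
  · exact hB e
  · simpa using mul_mem (hB e) (inv_mem (T3.mem_cent.mpr (conj_eq_iff.mp hσ.aa)))

theorem cent_z {v : G} (hv : v * ψ y = ψ y * v) (hc : IsConj (ψ a) v) : v * ψ z = ψ z * v := by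
  have : Fact (Nat.Prime 3) := ⟨Nat.prime_three⟩
  exact (T3.mem_cent.mp (le_of_dvd_card h.sylD abD (mem_map_of_mem ψ k_rel2.2.2.2.2.2.2.2.1)
    (h.cent_y' hσ.zw).1 (T3.mem_cent.mpr hv.symm) (by
      rw [← card_cent_conj hc]
      exact card_dvd_of_le (le_normalizer.trans (h.NC hσ))) (mem_map_of_mem ψ k_rel2.1))).symm

theorem not_conj_sig : ¬ IsConj (ψ a) σ ∧ ¬ IsConj (ψ a) (σ * ψ a) := by
  obtain ⟨-, -, -, -, r5, r6, -, -, -, -, -, -, -, r14⟩ := k_rel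
  obtain ⟨-, -, -, -, -, -, -, -, -, -, -, -, -, q3, q4, -⟩ := k_rel2
  have h1 : Commute σ (ψ y) := by
    refine conj_eq_iff.mp ?_
    rw [r14, map_mul, ← conj_mul, hσ.zw, hσ.wz, h.comm.mpr r5]
  have h2 : ¬ Commute σ (ψ z) := fun e => r6 (h.inj (by rw [← hσ.zw, e.eq]; simp))
  have h3 : Commute (ψ a) (ψ z) := h.comm.mpr q3
  refine ⟨fun e => h2 (h.cent_z hσ h1 e), fun e => h2 ?_⟩
  have h4 : Commute (σ * ψ a) (ψ z) := h.cent_z hσ (h1.mul_left (by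
    rw [r14, map_mul]; exact h3.mul_right (h.comm.mpr q4))) e
  simpa using h4.mul_left h3.inv_left

theorem dich (hu : u = t ∨ u = ta) :
    centralizer ({ψ a} : Set G) ≤ normalizer ((D.map ψ : Subgroup G) : Set G) ∨
    ∃ (π : centralizer ({ψ a} : Set G) →* Equiv.Perm (Fin 6)) (ι : Equiv.Perm (Fin 6) →* G),
      (∀ g, π g = 1 ↔ (g : G) ∈ zpowers (ψ a)) ∧ Split (centralizer ({ψ a} : Set G)) (ψ a) ι ∧
      ι S6.c0 = ψ s0 ∧ ι S6.c1 = ψ s1 ∧ ι S6.c3 = ψ u ∧ ι S6.c4 = ψ (u * w) := by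
  obtain ⟨r1, r2, r3, r4, r5, r6, r7, r8, r9, r10, r11, r12, r13, r14⟩ := k_rel
  obtain ⟨m1, m2, m3, m4, m5, m6, -, -, -, -, -, q1, q2, q3, q4, q5, q6, q7⟩ := k_rel2
  obtain ⟨p1, p2, p3, p4, p5, p6, p7, p8, p9, p10, p11, p12, p13, p14, p15, p16, p17, p18, p19,
    p20, p21⟩ := k_rel3
  have a2 : ψ a * ψ a = 1 := by rw [← map_mul, q1, map_one]
  have hNC := h.NC hσ
  have mB : ∀ {b}, b ∈ B → ψ b ∈ normalizer ((D.map ψ : Subgroup G) : Set G) := fun hb =>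
    h.BN (mem_map_of_mem ψ hb)
  have rr : σ * ψ s0 * (σ * ψ s0) = ψ (u * s0) := by
    rw [map_mul, ← hσ.su, inv_eq_of_mul_eq_one_right hσ.sq]; group
  obtain ⟨u1, u2, u3, u4, u5, u6, u7⟩ : u * s0 * (u * s0) = 1 ∧ u * s0 ≠ 1 ∧ u * s0 ≠ a ∧
      s0 * u = u * s0 ∧ s0 * (u * w) = u * w * s0 ∧ s1 * u = u * s1 ∧ s1 * (u * w) = u * w * s1 := by
    rcases hu with rfl | rfl
    · exact ⟨p16, p17, p18, p8, p5 ▸ p9, p10, p5 ▸ p11⟩
    · exact ⟨p19, p20, p21, p12, p13, p14, p15⟩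
  have s2 : ψ s0 * ψ s0 = 1 := by rw [← map_mul, r8, map_one]
  refine (nine_mod a2 (h.ne q2) (T3.mem_cent.mpr rfl) (fun g hg => T3.mem_cent.mp hg)
    (le_normalizer.trans hNC) (by rw [card_map_of_injective h.inj, card_D]) (by
      rintro _ ⟨d, hd, rfl⟩
      rw [← map_pow, (k_D d hd).2.1, map_one]) (fun e => h.syl (e.trans (card_subgroup_dvd_card _)))
    abD (fun g _ hg => by
      obtain ⟨k, rfl⟩ := h.cz (hg _ (mem_map_of_mem ψ m1))
      rcases ((k_cD k (h.comm.mp (hg _ (mem_map_of_mem ψ m1)))).2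
        (h.comm.mp (hg _ (mem_map_of_mem ψ m2)))).1 with e | e
      · exact Or.inl (mem_map_of_mem ψ e)
      · exact Or.inr (by rw [← map_mul]; exact mem_map_of_mem ψ e)) (by
      rintro _ ⟨d, hd, rfl⟩ d1 g hg e
      have c1 : ∀ g ∈ centralizer ({ψ a} : Set G), g * ψ z = ψ z * g →
          g ∈ normalizer ((D.map ψ : Subgroup G) : Set G) := fun g hg e => by
        obtain ⟨k, rfl⟩ := h.cz e
        exact mB ((k_cD k (h.comm.mp e)).1 (h.comm.mp (T3.mem_cent.mp hg)))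
      have c2 : g * ψ w = ψ w * g → g ∈ normalizer ((D.map ψ : Subgroup G) : Set G) := fun e => by
        have := conj_comm (g := σ) e
        rw [hσ.wz] at this
        simpa [mul_assoc] using mul_mem (mul_mem (inv_mem hσ.mem) (c1 _ (mul_mem (mul_mem
          (hNC hσ.mem) hg) (inv_mem (hNC hσ.mem))) this)) hσ.mem
      rcases (k_D d hd).2.2 with rfl | (rfl | rfl) | (rfl | rfl) | ⟨l, hl, e'⟩
      · exact absurd (map_one ψ) d1
      · exact c1 g hg e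
      · exact c1 g hg (Commute.inv_right_iff.mp (by rw [← map_inv]; exact e)).eq
      · exact c2 e
      · exact c2 (Commute.inv_right_iff.mp (by rw [← map_inv]; exact e)).eq
      have h1 := conj_comm (g := ψ l) e
      rw [← map_inv, ← map_mul, ← map_mul, e', map_inv] at h1
      simpa [mul_assoc] using mul_mem (mul_mem (inv_mem (mB hl))
        ((h.cent_y' hσ.zw).1 (T3.mem_cent.mpr h1))) (mB hl)) hNC h.nD
    (r := σ * ψ s0) (s := ψ s0) (mul_mem hσ.mem (mB m5)) (mB m5) (by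
      rw [show 4 = 2 * 2 from rfl, pow_mul, sq, sq, rr, ← map_mul, u1, map_one]) s2 (by
      rw [mul_inv_rev, inv_eq_of_mul_eq_one_right s2, inv_eq_of_mul_eq_one_right hσ.sq, mul_assoc,
        mul_assoc, s2, mul_one]) (by
      rw [rr, mem_zpowers_two a2, ← map_one ψ, h.inj.eq_iff, h.inj.eq_iff]; tauto)).imp_right ?_
  rintro ⟨π, hπ, hk⟩
  have mC : ∀ {b}, b ∈ B → ψ b ∈ centralizer ({ψ a} : Set G) := fun hb => hNC (mB hb)
  have uB : u ∈ B := by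
    rcases hu with rfl | rfl
    · exact m6
    · exact q5 ▸ mul_mem m6 k_rel2.2.2.2.2.2.2.1
  obtain ⟨ι, hι, e⟩ := lift_S6 a2 (h.ne q2) (T3.mem_cent.mpr rfl) (fun g hg => T3.mem_cent.mp hg)
    π hπ hk (s0 := ⟨_, mC m5⟩) (s1 := ⟨_, mC p6⟩) (s3 := ⟨_, mC uB⟩)
    (s4 := ⟨_, mC (mul_mem uB m4)⟩) (σ := ⟨σ, hNC hσ.mem⟩) (Subtype.ext s2)
    (Subtype.ext (by simp [← map_mul, p1])) (Subtype.ext (by simp [← map_mul, ← map_pow, p2]))
    (fun e => h.ne p3 (by simpa using congrArg Subtype.val e)) (Subtype.ext hσ.su)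
    (Subtype.ext (by
      change σ * ψ s1 * σ⁻¹ = ψ (u * w)
      rw [p4, map_mul, map_mul, ← conj_mul, hσ.su, hσ.zw])) (Subtype.ext (h.comm.mpr u4))
    (Subtype.ext (h.comm.mpr u5)) (Subtype.ext (h.comm.mpr u6)) (Subtype.ext (h.comm.mpr u7))
  exact ⟨π, ι, hk, hι, e⟩

end Pre

end Cfsg.Agent.H1.S8K
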