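import Cfsg.Agent.H1.S8B3
import Cfsg.Agent.H1.S8A
import Cfsg.Agent.H1.PProd

/-!
# Three-local recognition of `S_8`: conclusion
-/

set_option autoImplicit false

namespace Cfsg.Agent.H1.S8K

open Subgroup Cfsg.Agent.H9 Cfsg.Agent.H1.T3 Cfsg.Agent.H1.PC Cfsg.Agent.L0.SC3 Equiv
open Cfsg.Agent.H1.A8 (T0 h8)
open scoped Pointwise commutatorElement

variable {G : Type*} [Group G] [Finite G]

theorem equivL : Nonempty (L ≃* alternatingGroup (Fin 5)) := by
  obtain ⟨e, -⟩ := exists_equiv_cl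
    ((prodHom 3 5).comp ((MonoidHom.inr _ _).comp (alternatingGroup (Fin 5)).subtype))
    ((prodHom_injective 3 5).comp (fun a b e => Subtype.ext (congrArg Prod.snd e))) (gs := gL0) (by
      simp only [gL0, List.mem_cons, List.not_mem_nil, or_false]
      rintro c (rfl | rfl | rfl)
      · exact ⟨⟨swap 0 2 * swap 1 3, by simp [Perm.mem_alternatingGroup]⟩,
          dec_eq h8 (p := prodHom 3 5 (1, swap 0 2 * swap 1 3)) (by decide +kernel)⟩
      · exact ⟨⟨swap 2 3 * swap 3 4, by simp [Perm.mem_alternatingGroup]⟩,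
          dec_eq h8 (p := prodHom 3 5 (1, swap 2 3 * swap 3 4)) (by decide +kernel)⟩
      · exact ⟨⟨swap 0 1 * swap 2 3, by simp [Perm.mem_alternatingGroup]⟩,
          dec_eq h8 (p := prodHom 3 5 (1, swap 0 1 * swap 2 3)) (by decide +kernel)⟩)
    (by
      have := two_mul_nat_card_alternatingGroup (α := Fin 5)
      rw [Nat.card_perm, Nat.card_fin] at this
      have h2 := card_L0
      simp only [Nat.factorial] at this
      change _ ≤ Nat.card L0
      omega)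
  exact ⟨(subgroupOfEquivOfLe le_L).trans e.symm⟩

theorem simpleL : IsSimpleGroup L :=
  have := alternatingGroup.isSimpleGroup_five
  equivL.some.isSimpleGroup

theorem quasiL : IsQuasisimple L :=
  have := simpleL
  H7.isQuasisimple_of_isSimpleGroup (fun hc => by
    obtain ⟨-, -, -, -, -, -, -, -, -, -, -, -, u13, -, -, -, -, u18, -⟩ := k_u
    obtain ⟨m, hm, e⟩ := (k_L ta u18).2.2.2.1 u13
    exact e (congrArg Subtype.val (hc.is_comm.comm (⟨m, hm⟩ : L) ⟨ta, u18⟩)))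

namespace Cfg

variable {ψ : K0 →* G} {σ : G} {θ : T0 →* G} {N : Subgroup G} (h : Cfg ψ σ θ N)
include h

theorem normal : N.Normal :=
  normalizer_eq_top_iff.mp (eq_top_iff.mpr (h.top.1 ▸ sup_le le_normalizer h.TN))

omit [Finite G] in
theorem cent_bot {A : Subgroup G} (hA : ⁅A, N⁆ = ⊥) : A = ⊥ := by
  obtain ⟨-, -, -, -, -, -, -, -, -, -, -, -, -, -, -, u16, u17, u18, -⟩ := k_u
  rw [commutator_eq_bot_iff_le_centralizer] at hA
  rw [eq_bot_iff]
  intro g hg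
  have c : ∀ n ∈ N, g * n = n * g := fun n hn => (hA hg n hn).symm
  have e := c _ (h.m2 u17)
  rw [cj_apply, h.sig.wz] at e
  obtain ⟨k, rfl⟩ := h.pre.cz e
  have e' := c _ (h.m2 u18)
  rw [cj_apply, h.sig.us] at e'
  rw [(((k_cL k (h.pre.comm.mp e) (h.pre.comm.mp (c _ (h.m1 u18)))).2
    (h.pre.comm.mp (c _ (h.m1 u16)))).2 (h.pre.comm.mp (c _ (h.m1 u17))) (h.pre.comm.mp e')),
    map_one]
  exact one_mem _

theorem minimal (K : Subgroup G) (hK : K.Normal) (hKN : K ≤ N) : K = ⊥ ∨ K = N := by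
  have := simpleL
  have key : ∀ p ∈ L, p ≠ 1 → ψ p ∈ K → K = N := fun p hp p1 hpK => by
    have h1 := ((hK.comap (ψ.comp L.subtype))).eq_bot_or_eq_top.resolve_left (fun e => p1 (by
      have : (⟨p, hp⟩ : L) ∈ K.comap (ψ.comp L.subtype) := hpK
      rw [e] at this
      exact congrArg Subtype.val (mem_bot.mp this)))
    have h2 : ∀ q ∈ L, ψ q ∈ K := fun q hq =>
      show (⟨q, hq⟩ : L) ∈ K.comap (ψ.comp L.subtype) from h1 ▸ mem_top _
    refine le_antisymm hKN (fun g hg => ?_)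
    obtain ⟨p, hp, q, hq, rfl⟩ := (h.mem g).mp hg
    exact mul_mem (h2 p hp) (hK.conj_mem _ (h2 q hq) σ)
  have key2 : ∀ p ∈ L, ∀ q ∈ L, p ≠ 1 → ψ p * cj ψ σ q ∈ K → K = N := fun p hp q hq p1 hk => by
    obtain ⟨m, hm, e⟩ := (k_L p hp).2.2.2.1 p1
    refine key (m * p * m⁻¹ * p⁻¹) (mul_mem (mul_mem (mul_mem hm hp) (inv_mem hm)) (inv_mem hp))
      (fun e' => e (by rwa [mul_inv_eq_one, mul_inv_eq_iff_eq_mul] at e')) ?_
    have := mul_mem (hK.conj_mem _ hk (ψ m)) (inv_mem hk)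
    convert this using 1
    rw [← map_inv, mul_assoc (ψ m), mul_assoc (ψ p), ← h.comm _ (inv_mem hm) q hq]
    simp [mul_assoc]
  rw [or_iff_not_imp_left]
  intro hb
  obtain ⟨⟨g, hg⟩, g1⟩ := ne_bot_iff_exists_ne_one.mp hb
  obtain ⟨p, hp, q, hq, rfl⟩ := (h.mem g).mp (hKN hg)
  by_cases p1 : p = 1
  · refine key2 q hq p hp (fun q1 => g1 (Subtype.ext (by simp [p1, q1]))) ?_
    have := hK.conj_mem _ hg σ
    rw [← conj_mul, cj_apply ψ σ q, h.sig.cj_cj] at this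
    rwa [h.comm q hq p hp]
  · exact key2 p hp q hq p1 hg

theorem fstar : generalizedFittingSubgroup G = N := by
  have hN := h.normal
  have hn := H7.NormalIn.of_normal N
  have c : ∀ (f : K0 →* G), Function.Injective f → (∀ p ∈ L, f p ∈ N) →
      (∀ g ∈ N, ∀ p ∈ L, g * f p * g⁻¹ ∈ L.map f) → H7.CompIn (L.map f) ⊤ := fun f hf h1 h2 =>
    ⟨(H7.NormalIn.mk' (B := N) (map_le_iff_le_comap.mpr h1) (by
      rintro g hg _ ⟨p, hp, rfl⟩
      exact h2 g hg p hp)).subnormalIn.trans hn.subnormalIn,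
      H7.isQuasisimple_of_equiv quasiL (equivMapOfInjective L f hf)⟩
  have c1 := c ψ h.pre.inj (fun _ => h.m1) (fun g hg l hl => by
    obtain ⟨p, hp, q, hq, rfl⟩ := (h.mem g).mp hg
    refine ⟨p * l * p⁻¹, mul_mem (mul_mem hp hl) (inv_mem hp), ?_⟩
    rw [mul_assoc (ψ p), ← h.comm l hl q hq]
    simp [mul_assoc])
  have c2 := c (cj ψ σ) ((MulAut.conj σ).injective.comp h.pre.inj) (fun _ => h.m2)
    (fun g hg l hl => by
    obtain ⟨p, hp, q, hq, rfl⟩ := (h.mem g).mp hg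
    refine ⟨q * l * q⁻¹, mul_mem (mul_mem hq hl) (inv_mem hq), ?_⟩
    rw [h.comm p hp q hq, mul_assoc _ (ψ p), h.comm p hp l hl]
    simp only [map_mul, map_inv]
    group)
  have hle : ∀ {A : Subgroup G}, L.map ψ ≤ A → L.map (cj ψ σ) ≤ A → N ≤ A := fun h1 h2 g hg => by
    obtain ⟨p, hp, q, hq, rfl⟩ := (h.mem g).mp hg
    exact mul_mem (h1 (mem_map_of_mem _ hp)) (h2 (mem_map_of_mem _ hq))
  have hF : H7.fittingIn (⊤ : Subgroup G) = ⊥ := h.cent_bot (by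
    rw [commutator_comm, commutator_eq_bot_iff_le_centralizer]
    exact hle (commutator_eq_bot_iff_le_centralizer.mp c1.commutator_fittingIn)
      (commutator_eq_bot_iff_le_centralizer.mp c2.commutator_fittingIn))
  rw [← H7.fstarIn_top, H7.fstarIn_eq, hF, sup_bot_eq]
  exact le_antisymm (H7.layerIn_le_iff.mpr (fun A hA => (hA.le_or_commutator_of_normalIn hn).resolve_right
    (fun e => hA.ne_bot (h.cent_bot e)))) (hle c1.le_layerIn c2.le_layerIn)

end Cfg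

theorem Pre.main {ψ : K0 →* G} (h : Pre ψ) : Nonempty (G ≃* Perm (Fin 8)) ∨
    ∃ N : Subgroup G, N.Normal ∧ generalizedFittingSubgroup G = N ∧
      Nonempty (N ≃* alternatingGroup (Fin 5) × alternatingGroup (Fin 5)) ∧
      (∀ K : Subgroup G, K.Normal → K ≤ N → K = ⊥ ∨ K = N) ∧
      N.index = 4 ∧ ∀ g : G, g ^ 2 ∈ N := by
  obtain ⟨σ, u, rfl | rfl, hσ⟩ := h.exists_sig
  · exact Or.inl (h.caseA hσ)
  obtain ⟨θ, hθ, e1, e2, e3, e4, e5, e6⟩ := h.exists_T hσ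
  let f := MonoidHom.noncommCoprod (ψ.comp L.subtype) ((cj ψ σ).comp L.subtype) (h.comm_L hσ)
  have c : Cfg ψ σ θ f.range := ⟨h, hσ, hθ, e1, e2, e3, e4, e5, e6, fun g =>
    ⟨fun ⟨⟨p, q⟩, e⟩ => ⟨p, p.2, q, q.2, e⟩, fun ⟨p, hp, q, hq, e⟩ => ⟨(⟨p, hp⟩, ⟨q, hq⟩), e⟩⟩,
    fun p hp q hq => h.comm_L hσ ⟨p, hp⟩ ⟨q, hq⟩⟩
  have hf : Function.Injective f := (injective_iff_map_eq_one f).mpr (fun ⟨p, q⟩ e => by
    obtain ⟨h1, h2⟩ := c.uniq p.2 q.2 e
    exact Prod.ext (Subtype.ext h1) (Subtype.ext h2))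
  obtain ⟨e⟩ := equivL
  exact Or.inr ⟨_, c.normal, c.fstar, ⟨(f.ofInjective hf).symm.trans (e.prodCongr e)⟩, c.minimal,
    c.top.2, fun g => by rw [sq]; exact c.sq_mem (c.top.1 ▸ mem_top g)⟩

end Cfsg.Agent.H1.S8K
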